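import Cfsg.Agent.ConjFunctor.NormalSubgroupControl

/-!
A centric subgroup whose normalizer controls fusion yields a least centric radical subgroup.
-/

set_option autoImplicit false

namespace CfsgLib.ConjFunctor

variable {G : Type*} [Group G] [Finite G] {p : ℕ} [Fact p.Prime]

lemma conjOf_centralizer_eq {U : Subgroup G} {m : G} (hm : m ∈ Subgroup.normalizer (U : Set G)) :
    conjOf m (Subgroup.centralizer (U : Set G)) = Subgroup.centralizer (U : Set G) := by
  refine Subgroup.eq_of_le_of_card_ge (conjOf_le_iff.mpr fun x hx => ?_) (card_conjOf _ _).ge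
  have h1 : (m⁻¹)⁻¹ * x * m⁻¹ ∈ Subgroup.centralizer (U : Set G) :=
    mem_centralizer_conj (H := U) (h := m⁻¹) (c := x)
      (by rw [mem_normalizer_iff_conjOf.mp (Subgroup.inv_mem _ hm)]; exact hx)
  simpa using h1

lemma mem_normalizer_sup {A B : Subgroup G} {m : G} (hA : m ∈ Subgroup.normalizer (A : Set G))
    (hB : m ∈ Subgroup.normalizer (B : Set G)) : m ∈ Subgroup.normalizer ((A ⊔ B : Subgroup G) : Set G) := by
  rw [mem_normalizer_iff_conjOf, conjOf, Subgroup.map_sup]
  exact congrArg₂ (· ⊔ ·) (mem_normalizer_iff_conjOf.mp hA) (mem_normalizer_iff_conjOf.mp hB)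

lemma mem_normalizer_inf {A B : Subgroup G} {m : G} (hA : m ∈ Subgroup.normalizer (A : Set G))
    (hB : m ∈ Subgroup.normalizer (B : Set G)) : m ∈ Subgroup.normalizer ((A ⊓ B : Subgroup G) : Set G) := by
  rw [mem_normalizer_iff_conjOf, conjOf, Subgroup.map_inf _ _ _ (MulAut.conj m).injective]
  exact congrArg₂ (· ⊓ ·) (mem_normalizer_iff_conjOf.mp hA) (mem_normalizer_iff_conjOf.mp hB)

/-- `U` is radical in the weak form used by Alperin induction. -/
def RadicalAt (S : Subgroup G) (U : Subgroup G) : Prop :=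
  ∀ W : Subgroup G, Subgroup.centralizer (U : Set G) ≤ W → W ≤ Subgroup.normalizer (U : Set G) →
    Subgroup.normalizer (U : Set G) ≤ Subgroup.normalizer (W : Set G) →
    W ≤ Subgroup.centralizer (U : Set G) ⊔ (S ⊓ W) → S ⊓ W ≤ U

omit [Finite G] [Fact p.Prime] in
/-- Centralizing a normal self-centralizing subgroup of a `p`-group gives `k`-th conjugates in closed form. -/
lemma conj_pow_of_commute {y u v : G} (hv : v = y * u * y⁻¹ * u⁻¹) (hyv : Commute y v) (k : ℕ) :
    y ^ k * u * (y ^ k)⁻¹ = v ^ k * u := by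
  induction k with
  | zero => simp
  | succ k ih =>
    calc y ^ (k + 1) * u * (y ^ (k + 1))⁻¹ = y * (y ^ k * u * (y ^ k)⁻¹) * y⁻¹ := by rw [pow_succ']; group
      _ = (y * v ^ k) * y⁻¹ * (v * u) := by rw [ih, hv]; group
      _ = v ^ k * (v * u) := by rw [(hyv.pow_right k).eq, mul_inv_cancel_right]
      _ = v ^ (k + 1) * u := by rw [pow_succ]; group

/-- Thompson's lemma for a normal self-centralizing subgroup. -/
lemma mem_centralizer_of_coprime {U K : Subgroup G} (hU : IsPGroup p ↥U) (hKU : K ≤ U)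
    (hKn : U ≤ Subgroup.normalizer (K : Set G)) (hc : U ⊓ Subgroup.centralizer (K : Set G) ≤ K) {y : G}
    (hyU : y ∈ Subgroup.normalizer (U : Set G)) (hyK : y ∈ Subgroup.centralizer (K : Set G))
    (hy : (orderOf y).Coprime p) : y ∈ Subgroup.centralizer (U : Set G) := by
  intro u hu
  set v := y * u * y⁻¹ * u⁻¹ with hv
  have hvU : v ∈ U := U.mul_mem ((Subgroup.mem_normalizer_iff.mp hyU u).mp hu) (U.inv_mem hu)
  have hvK : v ∈ K := hc ⟨hvU, fun k hk => by
    have hk' : u⁻¹ * k * u ∈ K := (Subgroup.mem_normalizer_iff''.mp (hKn hu) k).mp hk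
    have h1 := hyK k hk
    have h2 := hyK _ hk'
    rw [hv]
    calc k * (y * u * y⁻¹ * u⁻¹) = (k * y) * u * y⁻¹ * u⁻¹ := by group
      _ = y * u * (u⁻¹ * k * u) * y⁻¹ * u⁻¹ := by rw [h1]; group
      _ = y * u * y⁻¹ * (y * (u⁻¹ * k * u)) * y⁻¹ * u⁻¹ := by group
      _ = y * u * y⁻¹ * ((u⁻¹ * k * u) * y) * y⁻¹ * u⁻¹ := by rw [h2]
      _ = y * u * y⁻¹ * u⁻¹ * k := by group⟩
  have h1 := conj_pow_of_commute hv (hyK v hvK).symm (orderOf y)
  rw [pow_orderOf_eq_one] at h1
  obtain ⟨k, hk⟩ := hU ⟨v, hvU⟩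
  have h2 : v = 1 := orderOf_eq_one_iff.mp (Nat.eq_one_of_dvd_coprimes (hy.pow_right k)
    (orderOf_dvd_of_pow_eq_one (by simpa using h1))
    (orderOf_dvd_of_pow_eq_one (by simpa using congrArg Subtype.val hk)))
  rw [hv, mul_inv_eq_one, mul_inv_eq_iff_eq_mul] at h2
  exact h2.symm

/-- A subgroup controlling fusion is contained in each radical subgroup. -/
theorem le_of_radicalAt (S : Sylow p G) {V U : Subgroup G} (hV : V ≤ (S : Subgroup G))
    (hn : (S : Subgroup G) ≤ Subgroup.normalizer (V : Set G)) (hU : U ≤ (S : Subgroup G))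
    (hctrl : ∀ A : Subgroup G, A ≤ (S : Subgroup G) → ∀ g, conjOf g A ≤ (S : Subgroup G) →
      SplitsIn (Subgroup.normalizer (V : Set G)) A g)
    (hrad : RadicalAt (S : Subgroup G) U) : V ≤ U := by
  set N := Subgroup.normalizer (U : Set G) with hN
  set X := (V ⊓ N) ⊔ Subgroup.centralizer (U : Set G) with hX
  have hCN : Subgroup.centralizer (U : Set G) ≤ N := Subgroup.centralizer_le_normalizer _
  have hNX : N ≤ Subgroup.normalizer (X : Set G) := by
    intro m hm
    obtain ⟨h, hh, c, hc, e⟩ := hctrl U hU m (by rw [mem_normalizer_iff_conjOf.mp hm]; exact hU)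
    have hhN : h ∈ N := by
      rw [show h = m * c⁻¹ by rw [e]; group]
      exact N.mul_mem hm (N.inv_mem (hCN hc))
    rw [e]
    exact Subgroup.mul_mem _ (mem_normalizer_sup (mem_normalizer_inf hh (Subgroup.le_normalizer hhN))
      (mem_normalizer_iff_conjOf.mpr (conjOf_centralizer_eq hhN))) (Subgroup.le_normalizer (Subgroup.mem_sup_right hc))
  have hle : V ⊓ N ≤ (S : Subgroup G) ⊓ X := le_inf (inf_le_left.trans hV) le_sup_left
  have h1 : V ⊓ N ≤ U := hle.trans
    (hrad X le_sup_right (sup_le inf_le_right hCN) hNX (sup_le (hle.trans le_sup_right) le_sup_left))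
  by_contra hcon
  have hlt : U < U ⊔ V := lt_of_le_of_ne le_sup_left fun h => hcon (le_sup_right.trans h.ge)
  refine (Alperin.lt_inf_normalizer (S.2.to_le (sup_le hU hV)) hlt).not_ge ?_
  rintro x ⟨hx, hxN⟩
  have hx' : x ∈ ((U ⊔ V : Subgroup G) : Set G) := hx
  rw [Subgroup.coe_mul_of_left_le_normalizer_right U V (hU.trans hn)] at hx'
  obtain ⟨u, hu, v, hv, rfl⟩ := Set.mem_mul.mp hx'
  refine U.mul_mem hu (h1 ⟨hv, ?_⟩)
  have := N.mul_mem (N.inv_mem (Subgroup.le_normalizer hu)) hxN
  simpa using this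

/-- If `K` is centric and `N(K)` controls fusion, some centric radical `Q` lies in all radical subgroups
and its normalizer controls fusion. -/
theorem exists_least_centric_radical (S : Sylow p G) {K : Subgroup G} (hKS : K ≤ (S : Subgroup G))
    (hKn : (S : Subgroup G) ≤ Subgroup.normalizer (K : Set G))
    (hKc : (S : Subgroup G) ⊓ Subgroup.centralizer (K : Set G) ≤ K)
    (hctrl : ∀ A : Subgroup G, A ≤ (S : Subgroup G) → ∀ g, conjOf g A ≤ (S : Subgroup G) →
      SplitsIn (Subgroup.normalizer (K : Set G)) A g) :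
    ∃ Q : Subgroup G, Q ≤ (S : Subgroup G) ∧ (S : Subgroup G) ≤ Subgroup.normalizer (Q : Set G) ∧
      (S : Subgroup G) ⊓ Subgroup.centralizer (Q : Set G) ≤ Q ∧
      (∀ X : Subgroup G, X ≤ Subgroup.normalizer (Q : Set G) →
        Subgroup.normalizer (Q : Set G) ≤ Subgroup.normalizer (X : Set G) →
        X ≤ (Q ⊔ Subgroup.centralizer (Q : Set G)) ⊔ ((S : Subgroup G) ⊓ X) →
        X ≤ Q ⊔ Subgroup.centralizer (Q : Set G)) ∧
      (∀ U : Subgroup G, U ≤ (S : Subgroup G) → RadicalAt (S : Subgroup G) U → Q ≤ U) ∧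
      ∀ A : Subgroup G, A ≤ (S : Subgroup G) → ∀ g, conjOf g A ≤ (S : Subgroup G) →
        SplitsIn (Subgroup.normalizer (Q : Set G)) A g := by
  set N := Subgroup.normalizer (K : Set G) with hNdef
  set C := Subgroup.centralizer (K : Set G) with hCdef
  have hCN : C ≤ N := Subgroup.centralizer_le_normalizer _
  have hNC : N ≤ Subgroup.normalizer (C : Set G) := fun m hm =>
    mem_normalizer_iff_conjOf.mpr (conjOf_centralizer_eq hm)
  set 𝓜 : Set (Subgroup G) := {Y | C ≤ Y ∧ Y ≤ N ∧ N ≤ Subgroup.normalizer (Y : Set G) ∧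
    Y ≤ C ⊔ ((S : Subgroup G) ⊓ Y)} with h𝓜
  set M := sSup 𝓜 with hMdef
  have hC𝓜 : C ∈ 𝓜 := ⟨le_rfl, hCN, hNC, le_sup_left⟩
  have hCM : C ≤ M := le_sSup hC𝓜
  have hMN : M ≤ N := sSup_le fun Y hY => hY.2.1
  have hNM : N ≤ Subgroup.normalizer (M : Set G) := by
    intro m hm
    refine mem_normalizer_iff_conjOf.mpr (Subgroup.eq_of_le_of_card_ge ?_ (card_conjOf _ _).ge)
    rw [conjOf, Subgroup.map_le_iff_le_comap]
    refine sSup_le fun Y hY => ?_
    rw [← Subgroup.map_le_iff_le_comap]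
    exact (mem_normalizer_iff_conjOf.mp (hY.2.2.1 hm)).le.trans (le_sSup hY)
  set Q := (S : Subgroup G) ⊓ M with hQdef
  have hMgen : M ≤ C ⊔ Q := sSup_le fun Y hY =>
    hY.2.2.2.trans (sup_le_sup_left (inf_le_inf_left _ (le_sSup hY)) _)
  have hQS : Q ≤ (S : Subgroup G) := inf_le_left
  have hKQ : K ≤ Q := by
    refine le_inf hKS (le_trans (le_sup_right : K ≤ C ⊔ K) (le_sSup ⟨le_sup_left, sup_le hCN Subgroup.le_normalizer,
      fun m hm => mem_normalizer_sup (hNC hm) hm, ?_⟩))
    exact sup_le le_sup_left ((le_inf hKS le_sup_right).trans le_sup_right)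
  have hSQ : (S : Subgroup G) ≤ Subgroup.normalizer (Q : Set G) := fun x hx =>
    mem_normalizer_inf (Subgroup.le_normalizer hx) (hNM (hKn hx))
  have hCQ : Subgroup.centralizer (Q : Set G) ≤ C := Subgroup.centralizer_le hKQ
  have hQc : (S : Subgroup G) ⊓ Subgroup.centralizer (Q : Set G) ≤ Q :=
    ((inf_le_inf_left _ hCQ).trans hKc).trans hKQ
  have hFN : ¬ p ∣ ((S : Subgroup G) ⊓ N).relIndex N := by
    rw [inf_eq_left.mpr hKn]
    exact fun h => S.not_dvd_index (h.trans (Subgroup.relIndex_dvd_index_of_le hKn))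
  have hQsyl : SylowIn p Q M :=
    ⟨inf_le_right, S.2.to_le inf_le_left, Alperin.not_dvd_relIndex_inf S hFN hMN hNM⟩
  have hNQ : Subgroup.normalizer (Q : Set G) ≤ N := by
    intro n hn
    obtain ⟨h, hh, c, hc, rfl⟩ := hctrl Q hQS n (by rw [mem_normalizer_iff_conjOf.mp hn]; exact hQS)
    exact N.mul_mem hh (hCN (hCQ hc))
  -- fully normalized radical subgroups
  have hmin : ∀ U : Subgroup G, U ≤ (S : Subgroup G) →
      ¬ p ∣ ((S : Subgroup G) ⊓ Subgroup.normalizer (U : Set G)).relIndex (Subgroup.normalizer (U : Set G)) →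
      RadicalAt (S : Subgroup G) U → Subgroup.normalizer (U : Set G) ≤ Subgroup.normalizer (Q : Set G) := by
    intro U hUS hFU hrad
    have hKU : K ≤ U := le_of_radicalAt S hKS hKn hUS hctrl hrad
    set NU := Subgroup.normalizer (U : Set G) with hNU
    set CU := Subgroup.centralizer (U : Set G) with hCU
    have hCUN : CU ≤ NU := Subgroup.centralizer_le_normalizer _
    have hNUN : NU ≤ N := by
      intro n hn
      obtain ⟨h, hh, c, hc, rfl⟩ := hctrl U hUS n (by rw [mem_normalizer_iff_conjOf.mp hn]; exact hUS)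
      exact N.mul_mem hh (hCN (Subgroup.centralizer_le hKU hc))
    have hKUn : U ≤ Subgroup.normalizer (K : Set G) := hUS.trans hKn
    have hUc : U ⊓ C ≤ K := (inf_le_inf_right _ hUS).trans hKc
    set X := (M ⊓ NU) ⊔ CU with hX
    have hXN : X ≤ NU := sup_le inf_le_right hCUN
    have hNX : NU ≤ Subgroup.normalizer (X : Set G) := fun m hm =>
      mem_normalizer_sup (mem_normalizer_inf (hNM (hNUN hm)) (Subgroup.le_normalizer hm))
        (mem_normalizer_iff_conjOf.mpr (conjOf_centralizer_eq hm))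
    have hgen : X ≤ CU ⊔ ((S : Subgroup G) ⊓ X) := by
      refine sup_le ?_ le_sup_left
      intro y hy
      have hMY : NU ≤ Subgroup.normalizer ((M ⊓ NU : Subgroup G) : Set G) := fun m hm =>
        mem_normalizer_inf (hNM (hNUN hm)) (Subgroup.le_normalizer hm)
      have hTY : ¬ p ∣ ((S : Subgroup G) ⊓ (M ⊓ NU)).relIndex (M ⊓ NU) :=
        Alperin.not_dvd_relIndex_inf S hFU inf_le_right hMY
      have key : ∀ z ∈ M ⊓ NU, (orderOf z).Coprime p → z ∈ CU := by
        intro z hz hzc
        refine mem_centralizer_of_coprime (S.2.to_le hUS) hKU hKUn hUc hz.2 ?_ hzc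
        -- the image of `z` in `M / C` is trivial
        have hzM : z ∈ M := hz.1
        have h1 : z ∈ C ⊔ Q := hMgen hzM
        rw [sup_comm] at h1
        have h1' : z ∈ ((Q ⊔ C : Subgroup G) : Set G) := h1
        rw [Subgroup.coe_mul_of_left_le_normalizer_right Q C ((hQS.trans hKn).trans hNC)] at h1'
        obtain ⟨q, hq, c, hc, hqc⟩ := Set.mem_mul.mp h1'
        have hzn : z ∈ Subgroup.normalizer (C : Set G) := hNC (hMN hzM)
        have hqn : q ∈ Subgroup.normalizer (C : Set G) := hNC (hKn (hQS hq))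
        have hcn : c ∈ Subgroup.normalizer (C : Set G) := Subgroup.le_normalizer hc
        let π := QuotientGroup.mk' (C.subgroupOf (Subgroup.normalizer (C : Set G)))
        have e1 : π ⟨z, hzn⟩ = π ⟨q, hqn⟩ := by
          have h2 : (⟨z, hzn⟩ : ↥(Subgroup.normalizer (C : Set G))) = ⟨q, hqn⟩ * ⟨c, hcn⟩ :=
            Subtype.ext hqc.symm
          rw [h2, map_mul, show π ⟨c, hcn⟩ = 1 from (QuotientGroup.eq_one_iff _).mpr hc, mul_one]
        obtain ⟨k, hk⟩ := S.2 ⟨q, hQS hq⟩
        have hk' : q ^ p ^ k = 1 := by simpa using congrArg Subtype.val hk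
        have e2 : π ⟨z, hzn⟩ = 1 := orderOf_eq_one_iff.mp (Nat.eq_one_of_dvd_coprimes (hzc.pow_right k)
          ((orderOf_map_dvd π _).trans (Subgroup.orderOf_mk z hzn).dvd)
          (by
            rw [e1]
            refine (orderOf_map_dvd π _).trans (orderOf_dvd_of_pow_eq_one (Subtype.ext ?_))
            simpa using hk'))
        exact ((QuotientGroup.eq_one_iff (⟨z, hzn⟩ : ↥(Subgroup.normalizer (C : Set G)))).mp e2 : _)
      -- the coset space of `CU` in `M ⊓ NU` is a `p`-group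
      set Y := M ⊓ NU with hY
      set D := CU ⊓ Y with hD
      haveI : (D.subgroupOf Y).Normal := (Subgroup.normal_subgroupOf_iff_le_normalizer inf_le_right).mpr
        fun m hm => mem_normalizer_inf (mem_normalizer_iff_conjOf.mpr (conjOf_centralizer_eq hm.2))
          (Subgroup.le_normalizer hm)
      have hpg : IsPGroup p (↥Y ⧸ D.subgroupOf Y) := by
        intro q
        obtain ⟨d, rfl⟩ := QuotientGroup.mk'_surjective _ q
        obtain ⟨k, m, hm, hkm⟩ := Nat.exists_eq_pow_mul_and_not_dvd (orderOf_pos d).ne' p (Fact.out : p.Prime).ne_one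
        refine ⟨k, ?_⟩
        rw [← map_pow, QuotientGroup.mk'_apply, QuotientGroup.eq_one_iff]
        refine ⟨key _ (d ^ p ^ k).2 ?_, (d ^ p ^ k).2⟩
        show (orderOf ((d ^ p ^ k : ↥Y) : G)).Coprime p
        rw [Subgroup.orderOf_coe]
        have hd : orderOf (d ^ p ^ k) ∣ m := by
          apply orderOf_dvd_of_pow_eq_one
          rw [← pow_mul, ← hkm, pow_orderOf_eq_one]
        exact ((((Fact.out : p.Prime).coprime_iff_not_dvd).mpr hm).symm).coprime_dvd_left hd
      obtain ⟨a, ha⟩ := IsPGroup.iff_card.mp hpg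
      have hYT : Y ≤ CU ⊔ ((S : Subgroup G) ⊓ Y) := by
        rw [← Subgroup.relIndex_eq_one]
        refine Nat.eq_one_of_dvd_coprimes ((((Fact.out : p.Prime).coprime_iff_not_dvd).mpr hTY).symm.pow_right a) ?_ ?_
        · exact Subgroup.relIndex_dvd_of_le_left Y le_sup_right
        · rw [← ha]
          exact Subgroup.relIndex_dvd_of_le_left Y (inf_le_left.trans le_sup_left)
      exact (sup_le_sup_left (inf_le_inf_left (S : Subgroup G) (le_sup_left : Y ≤ X)) CU : _ ≤ _) (hYT hy)
    have h1 : Q ⊓ NU ≤ U := (le_inf (inf_le_left.trans hQS)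
      ((inf_le_inf_right _ inf_le_right).trans le_sup_left)).trans (hrad X le_sup_right hXN hNX hgen)
    have hQU : Q ≤ U := by
      by_contra hcon
      have hlt : U < U ⊔ Q := lt_of_le_of_ne le_sup_left fun h => hcon (le_sup_right.trans h.ge)
      refine (Alperin.lt_inf_normalizer (S.2.to_le (sup_le hUS hQS)) hlt).not_ge ?_
      rintro x ⟨hx, hxN⟩
      have hx' : x ∈ ((U ⊔ Q : Subgroup G) : Set G) := hx
      rw [Subgroup.coe_mul_of_left_le_normalizer_right U Q (hUS.trans hSQ)] at hx'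
      obtain ⟨u, hu, v, hv, rfl⟩ := Set.mem_mul.mp hx'
      refine U.mul_mem hu (h1 ⟨hv, ?_⟩)
      have := NU.mul_mem (NU.inv_mem (Subgroup.le_normalizer hu)) hxN
      simpa using this
    intro n hn
    have hUM : U ⊓ M = Q := le_antisymm (inf_le_inf_right _ hUS) (le_inf hQU inf_le_right)
    rw [← hUM]
    exact mem_normalizer_inf hn (hNM (hNUN hn))
  have hctrlQ : ∀ A : Subgroup G, A ≤ (S : Subgroup G) → ∀ g, conjOf g A ≤ (S : Subgroup G) →
      SplitsIn (Subgroup.normalizer (Q : Set G)) A g := by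
    intro A hA g hg
    refine Alperin.centric_radical_induction S (fun H g => SplitsIn (Subgroup.normalizer (Q : Set G)) H g)
      (fun H K g hHK _ _ h => h.mono hHK) (fun H g k _ _ _ h1 h2 => h1.comp h2)
      (fun H c _ hc => ⟨1, Subgroup.one_mem _, c, hc, (one_mul c).symm⟩) ?_ A g hA hg
    intro U T hT hFU _ hrad n hn _
    exact ⟨n, hmin U (hT ▸ inf_le_left) hFU hrad hn, 1, Subgroup.one_mem _, (mul_one n).symm⟩
  refine ⟨Q, hQS, hSQ, hQc, ?_, fun U hU hrad => le_of_radicalAt S hQS hSQ hU hctrlQ hrad, hctrlQ⟩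
  · intro X hXN hNX hXgen
    have hCsup : C ⊔ (Q ⊔ X) ∈ 𝓜 := by
      refine ⟨le_sup_left, sup_le hCN (sup_le (hQS.trans hKn) (hXN.trans hNQ)), ?_, ?_⟩
      · intro n hn
        have hM' : SylowIn p (conjOf n Q) M := by
          have := sylowIn_conjOf hQsyl n
          rwa [mem_normalizer_iff_conjOf.mp (hNM hn)] at this
        obtain ⟨m, hm, hmn⟩ := SylowIn.exists_conj_eq hQsyl hM'
        have hm' : m ∈ Subgroup.normalizer ((C ⊔ (Q ⊔ X) : Subgroup G) : Set G) := by
          refine (sup_le (le_sup_left.trans Subgroup.le_normalizer) ?_ : C ⊔ Q ≤ _) (hMgen hm)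
          exact fun q hq => mem_normalizer_sup (hNC (hKn (hQS hq)))
            (mem_normalizer_sup (Subgroup.le_normalizer hq) (hNX (Subgroup.le_normalizer hq)))
        rw [conjOf_conjOf] at hmn
        have h2 : m * n ∈ Subgroup.normalizer (Q : Set G) := mem_normalizer_iff_conjOf.mpr hmn
        have h3 : m * n ∈ Subgroup.normalizer ((C ⊔ (Q ⊔ X) : Subgroup G) : Set G) :=
          mem_normalizer_sup (hNC (hNQ h2)) (mem_normalizer_sup h2 (hNX h2))
        have := Subgroup.mul_mem _ (Subgroup.inv_mem _ hm') h3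
        rwa [inv_mul_cancel_left] at this
      · have hQX : Q ⊔ X ≤ C ⊔ ((S : Subgroup G) ⊓ (C ⊔ (Q ⊔ X))) := by
          refine sup_le ((le_inf hQS (le_sup_left.trans le_sup_right)).trans le_sup_right)
            (hXgen.trans (sup_le (sup_le ?_ (hCQ.trans le_sup_left)) ?_))
          · exact (le_inf hQS (le_sup_left.trans le_sup_right)).trans le_sup_right
          · exact (inf_le_inf_left _ (le_sup_right.trans le_sup_right)).trans le_sup_right
        exact sup_le le_sup_left hQX
    refine hXgen.trans (sup_le le_rfl (le_trans ?_ le_sup_left))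
    exact le_inf inf_le_left (inf_le_right.trans ((le_sup_right.trans le_sup_right).trans (le_sSup hCsup)))

end CfsgLib.ConjFunctor
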