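import Cfsg.Agent.ConjFunctor.LimitSubspace
import Mathlib.Algebra.BigOperators.Group.Finset.Basic
import Mathlib.Algebra.Group.Subgroup.Finite
import Mathlib.Algebra.Order.BigOperators.Group.Finset

/-!
Replacing a square-zero family of unipotent elements by its limit under a quadratic element.
-/

set_option autoImplicit false

open Polynomial

namespace CfsgLib.ConjFunctor

variable {R : Type*} [Ring R]

/-- Conjugation by `1 + x`, for `x` of square zero. -/
def unipConj (x : R) : R →+ R where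
  toFun α := (1 + x) * α * (1 - x)
  map_zero' := by simp
  map_add' _ _ := by rw [mul_add, add_mul]

lemma unipConj_apply (x α : R) : unipConj x α = (1 + x) * α * (1 - x) := rfl

/-- The members of `E` annihilated by `U` on the left. -/
def annIn (E U : AddSubgroup R) : AddSubgroup R where
  carrier := {x | x ∈ E ∧ ∀ α ∈ U, α * x = 0}
  zero_mem' := ⟨E.zero_mem, fun _ _ => mul_zero _⟩
  add_mem' := fun hx hy => ⟨E.add_mem hx.1 hy.1, fun α hα => by rw [mul_add, hx.2 α hα, hy.2 α hα, add_zero]⟩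
  neg_mem' := fun hx => ⟨E.neg_mem hx.1, fun α hα => by rw [mul_neg, hx.2 α hα, neg_zero]⟩

lemma coeff_mul_eq_zero {P Q : R[X]} (h : ∀ i j, P.coeff i * Q.coeff j = 0) : P * Q = 0 := by
  ext n
  rw [coeff_mul, coeff_zero]
  exact Finset.sum_eq_zero fun x _ => h _ _

lemma half_add {k : ℕ} (hk : ((2 * k : ℕ) : R) = 1) (z : R) : k • z + k • z = z := by
  rw [← two_nsmul, smul_smul, nsmul_eq_mul, hk, one_mul]

/-- Three unipotent elements with commutators in the common parts multiply to the unipotent element of their sum. -/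
theorem three_sum {k : ℕ} (hk : ((2 * k : ℕ) : R) = 1) (Γ : Submonoid R) {a b c : R}
    (haa : a * a = 0) (hbb : b * b = 0) (hcc : c * c = 0) (hsq : (a + b + c) * (a + b + c) = 0)
    (ha : 1 + a ∈ Γ) (hb : 1 + b ∈ Γ) (hc : 1 + c ∈ Γ)
    {x y z : R} (hx : x = a * b - b * a) (hy : y = a * c - c * a) (hz : z = b * c - c * b)
    (hxa : a * x = 0) (hxa' : x * a = 0) (hxb : b * x = 0) (hxb' : x * b = 0)
    (hya : a * y = 0) (hya' : y * a = 0) (hyc : c * y = 0) (hyc' : y * c = 0)
    (hzb : b * z = 0) (hzb' : z * b = 0) (hzc : c * z = 0) (hzc' : z * c = 0)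
    (hcx : b * (c * x - x * c) = 0)
    (hxy : x * y = 0) (hyx : y * x = 0) (hxz : x * z = 0) (hzx : z * x = 0) (hyz : y * z = 0) (hzy : z * y = 0)
    (hΓx : 1 - k • x ∈ Γ) (hΓy : 1 - k • y ∈ Γ) (hΓz : 1 - k • z ∈ Γ) : 1 + (a + b + c) ∈ Γ := by
  have hxx : x * x = 0 := by
    conv_lhs => arg 2; rw [hx]
    rw [mul_sub, ← mul_assoc, ← mul_assoc, hxa', hxb', zero_mul, zero_mul, sub_zero]
  have hyy : y * y = 0 := by
    conv_lhs => arg 2; rw [hy]
    rw [mul_sub, ← mul_assoc, ← mul_assoc, hya', hyc', zero_mul, zero_mul, sub_zero]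
  have hzz : z * z = 0 := by
    conv_lhs => arg 2; rw [hz]
    rw [mul_sub, ← mul_assoc, ← mul_assoc, hzb', hzc', zero_mul, zero_mul, sub_zero]
  have aba : a * b * a = 0 := by
    have h := hxa
    rw [hx, mul_sub, ← mul_assoc, ← mul_assoc, haa, zero_mul, zero_sub, neg_eq_zero] at h
    exact h
  have bab : b * a * b = 0 := by
    have h := hxb
    rw [hx, mul_sub, ← mul_assoc, ← mul_assoc, hbb, zero_mul, sub_zero] at h
    exact h
  have aca : a * c * a = 0 := by
    have h := hya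
    rw [hy, mul_sub, ← mul_assoc, ← mul_assoc, haa, zero_mul, zero_sub, neg_eq_zero] at h
    exact h
  have cac : c * a * c = 0 := by
    have h := hyc
    rw [hy, mul_sub, ← mul_assoc, ← mul_assoc, hcc, zero_mul, sub_zero] at h
    exact h
  have bcb : b * c * b = 0 := by
    have h := hzb
    rw [hz, mul_sub, ← mul_assoc, ← mul_assoc, hbb, zero_mul, zero_sub, neg_eq_zero] at h
    exact h
  have cbc : c * b * c = 0 := by
    have h := hzc
    rw [hz, mul_sub, ← mul_assoc, ← mul_assoc, hcc, zero_mul, sub_zero] at h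
    exact h
  have e0 : a * b + b * a + (a * c + c * a) + (b * c + c * b) = 0 := by
    calc a * b + b * a + (a * c + c * a) + (b * c + c * b)
        = (a + b + c) * (a + b + c) - a * a - b * b - c * c := by noncomm_ring
      _ = 0 := by rw [hsq, haa, hbb, hcc]; noncomm_ring
  have l1 : a * b * c + a * c * b = 0 := by
    calc a * b * c + a * c * b = a * ((a + b + c) * (a + b + c)) - (a * a) * (a + b + c) - a * b * a - a * c * a
          - a * (b * b) - a * (c * c) := by noncomm_ring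
      _ = 0 := by rw [hsq, haa, aba, aca, hbb, hcc]; noncomm_ring
  have l2 : b * a * c + b * c * a = 0 := by
    calc b * a * c + b * c * a = b * ((a + b + c) * (a + b + c)) - (b * b) * (a + b + c) - b * a * b - b * c * b
          - b * (a * a) - b * (c * c) := by noncomm_ring
      _ = 0 := by rw [hsq, haa, bab, bcb, hbb, hcc]; noncomm_ring
  have l3 : c * a * b + c * b * a = 0 := by
    calc c * a * b + c * b * a = c * ((a + b + c) * (a + b + c)) - (c * c) * (a + b + c) - c * a * c - c * b * c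
          - c * (a * a) - c * (b * b) := by noncomm_ring
      _ = 0 := by rw [hsq, haa, cac, cbc, hbb, hcc]; noncomm_ring
  have r1 : b * c * a + c * b * a = 0 := by
    calc b * c * a + c * b * a = ((a + b + c) * (a + b + c)) * a - (a + b + c) * (a * a) - a * b * a - a * c * a
          - (b * b) * a - (c * c) * a := by noncomm_ring
      _ = 0 := by rw [hsq, haa, aba, aca, hbb, hcc]; noncomm_ring
  have r2 : a * c * b + c * a * b = 0 := by
    calc a * c * b + c * a * b = ((a + b + c) * (a + b + c)) * b - (a + b + c) * (b * b) - b * a * b - b * c * b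
          - (a * a) * b - (c * c) * b := by noncomm_ring
      _ = 0 := by rw [hsq, haa, bab, bcb, hbb, hcc]; noncomm_ring
  set e := a * b * c with he
  have e1 : a * c * b = -e := eq_neg_of_add_eq_zero_right l1
  have e2 : c * a * b = e := by
    rw [eq_neg_of_add_eq_zero_right r2, e1, neg_neg]
  have e3 : c * b * a = -e := by rw [eq_neg_of_add_eq_zero_right l3, e2]
  have e4 : b * c * a = e := by rw [eq_neg_of_add_eq_zero_left r1, e3, neg_neg]
  have e5 : b * a * c = -e := by rw [eq_neg_of_add_eq_zero_left l2, e4]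
  set C := x + y + z with hC
  have hγC : (a + b + c) * C = e + e := by
    calc (a + b + c) * C = a * x + b * x + a * y + c * y + b * z + c * z + (c * x + b * y + a * z) := by
          rw [hC]; noncomm_ring
      _ = c * (a * b - b * a) + b * (a * c - c * a) + a * (b * c - c * b) := by
          rw [hxa, hxb, hya, hyc, hzb, hzc, hx, hy, hz]; noncomm_ring
      _ = (c * a * b - c * b * a) + (b * a * c - b * c * a) + (a * b * c - a * c * b) := by noncomm_ring
      _ = e + e := by rw [e2, e3, e5, e4, e1]; abel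
  have hC2 : C * C = 0 := by
    calc C * C = x * x + y * y + z * z + (x * y + y * x) + (x * z + z * x) + (y * z + z * y) := by
          rw [hC]; noncomm_ring
      _ = 0 := by rw [hxx, hyy, hzz, hxy, hyx, hxz, hzx, hyz, hzy]; simp
  have heC : e * C = 0 := by
    have hbcx : b * c * x = 0 := by
      calc b * c * x = b * (c * x - x * c) + (b * x) * c := by noncomm_ring
        _ = 0 := by rw [hcx, hxb, zero_mul, add_zero]
    calc e * C = a * (b * c * x) + a * b * (c * y) + a * b * (c * z) := by rw [he, hC]; noncomm_ring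
      _ = 0 := by rw [hbcx, hyc, hzc]; noncomm_ring
  have hkC : k • C = a * b + a * c + b * c := by
    have : C = 2 • (a * b + a * c + b * c) - (a * b + b * a + (a * c + c * a) + (b * c + c * b)) := by
      rw [hC, hx, hy, hz, two_nsmul]; noncomm_ring
    rw [this, e0, sub_zero, two_nsmul, nsmul_add, half_add hk]
  have hprod : (1 - k • x) * (1 - k • y) * (1 - k • z) = 1 - k • C := by
    simp only [mul_sub, sub_mul, mul_one, one_mul, smul_mul_assoc, mul_smul_comm, hxy, hxz, hyz, hC, nsmul_add,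
      smul_zero, zero_mul, mul_zero, sub_zero]
    abel
  have key : (1 + a) * (1 + b) * (1 + c) * (1 - k • C) = 1 + (a + b + c) := by
    have h1 : (1 + a) * (1 + b) * (1 + c) = 1 + (a + b + c) + (a * b + a * c + b * c) + e := by
      rw [he]; noncomm_ring
    rw [h1, ← hkC]
    simp only [mul_sub, add_mul, mul_one, one_mul, smul_mul_assoc, mul_smul_comm, hC2, heC, smul_zero]
    rw [← add_mul, ← add_mul, hγC, add_zero, add_zero, nsmul_add C (e + e) k, nsmul_add e e k, half_add hk]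
    simp only [hC, nsmul_add]
    abel
  rw [← key, ← hprod]
  exact Γ.mul_mem (Γ.mul_mem (Γ.mul_mem ha hb) hc) (Γ.mul_mem (Γ.mul_mem hΓx hΓy) hΓz)

variable {β : R}

lemma unip_mul (hβ : β * β = 0) : (1 - β) * (1 + β) = 1 := by
  calc (1 - β) * (1 + β) = 1 - β * β := by noncomm_ring
    _ = 1 := by rw [hβ, sub_zero]

lemma unipConj_mul (hβ : β * β = 0) (x y : R) : unipConj β (x * y) = unipConj β x * unipConj β y := by
  calc unipConj β (x * y) = (1 + β) * x * ((1 - β) * (1 + β)) * y * (1 - β) := by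
        rw [unip_mul hβ, unipConj_apply]; noncomm_ring
    _ = _ := by rw [unipConj_apply, unipConj_apply]; noncomm_ring

lemma unipConj_unipConj {γ : R} (h1 : β * γ = 0) (h2 : γ * β = 0) (x : R) :
    unipConj β (unipConj γ x) = unipConj (β + γ) x := by
  simp only [unipConj_apply]
  calc (1 + β) * ((1 + γ) * x * (1 - γ)) * (1 - β)
      = (1 + β + γ + β * γ) * x * (1 - γ - β + γ * β) := by noncomm_ring
    _ = _ := by rw [h1, h2]; noncomm_ring

/-- The limit of a square-zero subgroup. -/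
noncomputable def limitOf (β : R) (U : AddSubgroup R) : AddSubgroup R := leadSub (limConj β) (limConj_X_mul β) U

lemma coeff_X_mul_mem {U : AddSubgroup R} {u : R[X]} (hu : ∀ i, u.coeff i ∈ U) : ∀ i, (X * u).coeff i ∈ U := by
  rintro (_ | i)
  · rw [coeff_X_mul_zero]; exact U.zero_mem
  · rw [coeff_X_mul]; exact hu i

lemma limitOf_form {U : AddSubgroup R} {w : R} (hw : w ∈ limitOf β U) :
    ∃ p ∈ U, ∃ y ∈ U, ∃ z ∈ U, w = p + (β * y - y * β) - β * z * β := by
  obtain ⟨u, k, hu, -, rfl⟩ := hw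
  refine ⟨_, coeff_X_mul_mem (coeff_X_mul_mem hu) k, _, coeff_X_mul_mem hu k, _, hu k, ?_⟩
  rw [limConj_coeff, mul_sub, ← mul_assoc X (C β) u, X_mul (p := C β), mul_assoc (C β) X u, ← mul_assoc X u (C β),
    coeff_sub, coeff_C_mul, coeff_mul_C]

variable [Finite R]

theorem card_le_limitOf (hβ : β * β = 0) (U : AddSubgroup R) : Nat.card U ≤ Nat.card (limitOf β U) :=
  card_le_leadSub _ _ (limConj_injective hβ) limConj_degree U

omit [Finite R] in
theorem limitOf_mul (hβ : β * β = 0) {U : AddSubgroup R} (hU : ∀ α ∈ U, ∀ α' ∈ U, α * α' = 0) :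
    ∀ w ∈ limitOf β U, ∀ w' ∈ limitOf β U, w * w' = 0 := by
  rintro w ⟨u, k, hu, hlow, rfl⟩ w' ⟨u', k', hu', hlow', rfl⟩
  refine lead_mul_eq_zero ?_ hlow hlow'
  rw [limConj_apply, limConj_apply]
  have h : u * u' = 0 := coeff_mul_eq_zero fun i j => hU _ (hu i) _ (hu' j)
  calc (X + C β) * u * (X - C β) * ((X + C β) * u' * (X - C β))
      = (X + C β) * u * ((X - C β) * (X + C β)) * u' * (X - C β) := by noncomm_ring
    _ = (X + C β) * (u * (X * X)) * u' * (X - C β) := by rw [sub_mul_add_eq hβ]; noncomm_ring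
    _ = (X + C β) * ((X * X) * u) * u' * (X - C β) := by
        rw [show u * (X * X) = (X * X) * u by rw [mul_assoc X X u, X_mul (p := u), X_mul (p := u * X), mul_assoc]]
    _ = (X + C β) * (X * X) * (u * u') * (X - C β) := by noncomm_ring
    _ = 0 := by rw [h]; noncomm_ring

theorem card_annIn_le_limitOf (hβ : β * β = 0) {U E : AddSubgroup R} (hE : ∀ x ∈ E, β * x ∈ E) :
    Nat.card (annIn E U) ≤ Nat.card (annIn E (limitOf β U)) := by
  refine (card_le_leadSub _ (limLeft_X_mul β) (limLeft_injective hβ) limLeft_degree (annIn E U)).trans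
    (Nat.card_le_card_of_injective _ (AddSubgroup.inclusion_injective ?_))
  rintro w ⟨v, j, hv, hlowv, rfl⟩
  refine ⟨?_, ?_⟩
  · rw [limLeft_coeff]
    exact E.add_mem (coeff_X_mul_mem (U := E) (fun i => (hv i).1) j) (hE _ (hv j).1)
  · rintro w' ⟨u, k, hu, hlow, rfl⟩
    refine lead_mul_eq_zero ?_ hlow hlowv
    rw [limConj_apply, limLeft_apply]
    have h : u * v = 0 := coeff_mul_eq_zero fun i l => (hv l).2 _ (hu i)
    calc (X + C β) * u * (X - C β) * ((X + C β) * v)
        = (X + C β) * u * ((X - C β) * (X + C β)) * v := by noncomm_ring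
      _ = (X + C β) * (u * (X * X)) * v := by rw [sub_mul_add_eq hβ]; noncomm_ring
      _ = (X + C β) * ((X * X) * u) * v := by
          rw [show u * (X * X) = (X * X) * u by rw [mul_assoc X X u, X_mul (p := u), X_mul (p := u * X), mul_assoc]]
      _ = (X + C β) * (X * X) * (u * v) := by noncomm_ring
      _ = 0 := by rw [h]; noncomm_ring

omit [Finite R] in
/-- The elements `1 + w` with `w` in the limit lie in the group. -/
theorem one_add_limitOf_mem {k : ℕ} (hk : ((2 * k : ℕ) : R) = 1) (Γ : Submonoid R) (hβ : β * β = 0)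
    (hΓβ : 1 + β ∈ Γ) (hΓβ' : 1 - β ∈ Γ) {U : AddSubgroup R} (hU : ∀ α ∈ U, ∀ α' ∈ U, α * α' = 0)
    (hΓU : ∀ α ∈ U, 1 + α ∈ Γ)
    (hnorm : ∀ γ ∈ ({β, -β, -β + -β} : Set R), ∀ α ∈ U, ∀ α' ∈ U,
      α * unipConj γ α' - unipConj γ α' * α ∈ U ∧ α * unipConj γ α' - unipConj γ α' * α ∈ U.map (unipConj γ)) :
    ∀ w ∈ limitOf β U, 1 + w ∈ Γ := by
  intro w hw
  have hnβ : -β * -β = (0 : R) := by rw [neg_mul_neg, hβ]
  set U₁ := U.map (unipConj β) with hU₁
  set U₂ := U.map (unipConj (-β)) with hU₂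
  -- the three families
  have hΓ₁ : ∀ a ∈ U₁, 1 + a ∈ Γ := by
    rintro _ ⟨α, hα, rfl⟩
    rw [show 1 + unipConj β α = (1 + β) * (1 + α) * (1 - β) + β * β by rw [unipConj_apply]; noncomm_ring,
      hβ, add_zero]
    exact Γ.mul_mem (Γ.mul_mem hΓβ (hΓU α hα)) hΓβ'
  have hΓ₂ : ∀ a ∈ U₂, 1 + a ∈ Γ := by
    rintro _ ⟨α, hα, rfl⟩
    rw [show 1 + unipConj (-β) α = (1 - β) * (1 + α) * (1 + β) + β * β by rw [unipConj_apply]; noncomm_ring,
      hβ, add_zero]
    exact Γ.mul_mem (Γ.mul_mem hΓβ' (hΓU α hα)) hΓβ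
  have hS₁ : ∀ a ∈ U₁, ∀ a' ∈ U₁, a * a' = 0 := by
    rintro _ ⟨α, hα, rfl⟩ _ ⟨α', hα', rfl⟩
    rw [← unipConj_mul hβ, hU α hα α' hα', map_zero]
  have hS₂ : ∀ a ∈ U₂, ∀ a' ∈ U₂, a * a' = 0 := by
    rintro _ ⟨α, hα, rfl⟩ _ ⟨α', hα', rfl⟩
    rw [← unipConj_mul hnβ, hU α hα α' hα', map_zero]
  have h01 : ∀ a ∈ U, ∀ b ∈ U₁, a * b - b * a ∈ U ∧ a * b - b * a ∈ U₁ := by
    rintro a ha _ ⟨α, hα, rfl⟩
    exact hnorm β (by simp) a ha α hα
  have h02 : ∀ a ∈ U, ∀ c ∈ U₂, a * c - c * a ∈ U ∧ a * c - c * a ∈ U₂ := by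
    rintro a ha _ ⟨α, hα, rfl⟩
    exact hnorm (-β) (by simp) a ha α hα
  have h12 : ∀ b ∈ U₁, ∀ c ∈ U₂, b * c - c * b ∈ U₁ ∧ b * c - c * b ∈ U₂ := by
    rintro _ ⟨α, hα, rfl⟩ _ ⟨α', hα', rfl⟩
    have e : ∀ x, unipConj (-β) x = unipConj β (unipConj (-β + -β) x) := fun x => by
      rw [unipConj_unipConj (by simp [mul_add, hβ]) (by simp [add_mul, hβ])]
      congr 1
      abel
    obtain ⟨h1, γ', hγ', h2⟩ := hnorm (-β + -β) (by simp) α hα α' hα'
    rw [e, ← unipConj_mul hβ, ← unipConj_mul hβ, ← map_sub]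
    exact ⟨⟨_, h1, rfl⟩, ⟨γ', hγ', by rw [e, h2]⟩⟩
  obtain ⟨q, hq, y, hy, z, hz, hwe⟩ := limitOf_form hw
  set a := q - z with ha
  set b := k • (unipConj β y + unipConj β z) with hb
  set c := k • (unipConj (-β) z - unipConj (-β) y) with hc
  have haU : a ∈ U := U.sub_mem hq hz
  have hbU : b ∈ U₁ :=
    nsmul_mem (add_mem (AddSubgroup.mem_map_of_mem _ hy) (AddSubgroup.mem_map_of_mem _ hz)) k
  have hcU : c ∈ U₂ :=
    nsmul_mem (sub_mem (AddSubgroup.mem_map_of_mem _ hz) (AddSubgroup.mem_map_of_mem _ hy)) k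
  have hsum : w = a + b + c := by
    have e1 : unipConj β y - unipConj (-β) y = (β * y - y * β) + (β * y - y * β) := by
      simp only [unipConj_apply]; noncomm_ring
    have e2 : unipConj β z + unipConj (-β) z = (z - β * z * β) + (z - β * z * β) := by
      simp only [unipConj_apply]; noncomm_ring
    calc w = (q - z) + (β * y - y * β) + (z - β * z * β) := by rw [hwe]; abel
      _ = (q - z) + k • (unipConj β y - unipConj (-β) y) + k • (unipConj β z + unipConj (-β) z) := by
          rw [e1, e2, nsmul_add, half_add hk, nsmul_add, half_add hk]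
      _ = a + b + c := by
          rw [ha, hb, hc, smul_add, smul_sub, smul_add, smul_sub]; abel
  have hsq : (a + b + c) * (a + b + c) = 0 := by rw [← hsum]; exact limitOf_mul hβ hU w hw w hw
  rw [hsum]
  obtain ⟨x0, x1⟩ := h01 a haU b hbU
  obtain ⟨y0, y2⟩ := h02 a haU c hcU
  obtain ⟨z1, z2⟩ := h12 b hbU c hcU
  have hneg : ∀ {V : AddSubgroup R}, (∀ v ∈ V, 1 + v ∈ Γ) → ∀ v ∈ V, 1 - k • v ∈ Γ := fun hV v hv => by
    rw [sub_eq_add_neg]; exact hV _ (neg_mem (nsmul_mem hv k))
  exact three_sum hk Γ (hU a haU a haU) (hS₁ b hbU b hbU) (hS₂ c hcU c hcU) hsq (hΓU a haU) (hΓ₁ b hbU)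
    (hΓ₂ c hcU) rfl rfl rfl (hU _ haU _ x0) (hU _ x0 _ haU) (hS₁ _ hbU _ x1) (hS₁ _ x1 _ hbU)
    (hU _ haU _ y0) (hU _ y0 _ haU) (hS₂ _ hcU _ y2) (hS₂ _ y2 _ hcU)
    (hS₁ _ hbU _ z1) (hS₁ _ z1 _ hbU) (hS₂ _ hcU _ z2) (hS₂ _ z2 _ hcU)
    (by
      refine hS₁ _ hbU _ ?_
      have := neg_mem (h12 _ x1 c hcU).1
      rwa [neg_sub] at this)
    (hU _ x0 _ y0) (hU _ y0 _ x0) (hS₁ _ x1 _ z1) (hS₁ _ z1 _ x1) (hS₂ _ y2 _ z2) (hS₂ _ z2 _ y2)
    (hneg hΓU _ x0) (hneg hΓU _ y0) (hneg hΓ₁ _ z1)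

/-- The limit lies strictly deeper in an invariant filtration. -/
theorem exists_filtration_gain {k : ℕ} (hk : ((2 * k : ℕ) : R) = 1) (hβ : β * β = 0) (U : AddSubgroup R) (F : ℕ → AddSubgroup R) (N : ℕ)
    (hF0 : U ≤ F 0) (hFN : F N = ⊥) (hanti : ∀ i, F (i + 1) ≤ F i)
    (hD : ∀ i, ∀ x ∈ F i, β * x - x * β ∈ F (i + 1) ∧ β * x * β ∈ F (i + 1))
    (hns : ∃ α ∈ U, β * α - α * β ∉ U) :
    ∑ i ∈ Finset.range N, Nat.card ↥(U ⊓ F i) < ∑ i ∈ Finset.range N, Nat.card ↥(limitOf β U ⊓ F i) := by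
  classical
  have hle : ∀ i, Nat.card ↥(U ⊓ F i) ≤ Nat.card ↥(limitOf β U ⊓ F i) := by
    intro i
    refine (card_le_limitOf hβ (U ⊓ F i)).trans
      (Nat.card_le_card_of_injective _ (AddSubgroup.inclusion_injective fun w hw => AddSubgroup.mem_inf.mpr ⟨?_, ?_⟩))
    · obtain ⟨u, k, hu, hlow, rfl⟩ := hw
      exact ⟨u, k, fun j => (hu j).1, hlow, rfl⟩
    · obtain ⟨q, hq, y, hy, z, hz, rfl⟩ := limitOf_form hw
      exact sub_mem (add_mem hq.2 (hanti i (hD i y hy.2).1)) (hanti i (hD i z hz.2).2)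
  obtain ⟨α₀, hα₀, hα₀'⟩ := hns
  have hbad : ∀ i, (∃ α ∈ U ⊓ F i, β * α - α * β ∉ U) → i < N := by
    rintro i ⟨α, hα, hα'⟩
    by_contra h
    have hz : ∀ d, F (N + d) = ⊥ := by
      intro d
      induction d with
      | zero => exact hFN
      | succ d ih => exact le_bot_iff.mp ((hanti _).trans ih.le)
    obtain ⟨d, rfl⟩ := Nat.exists_eq_add_of_le (not_lt.mp h)
    have : α = 0 := by simpa [hz d] using hα.2
    exact hα' (by simp [this])
  have h0 : ∃ α ∈ U ⊓ F 0, β * α - α * β ∉ U := ⟨α₀, ⟨hα₀, hF0 hα₀⟩, hα₀'⟩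
  set i₀ := Nat.findGreatest (fun i => ∃ α ∈ U ⊓ F i, β * α - α * β ∉ U) N with hi₀
  obtain ⟨α, hα, hαD⟩ := Nat.findGreatest_spec (P := fun i => ∃ α ∈ U ⊓ F i, β * α - α * β ∉ U) (Nat.zero_le N) h0
  have hi₀N : i₀ < N := hbad i₀ ⟨α, hα, hαD⟩
  have hiN : i₀ + 1 < N := by
    by_contra h
    have : i₀ + 1 = N := by omega
    have hmem := (hD i₀ α hα.2).1
    rw [this, hFN, AddSubgroup.mem_bot] at hmem
    exact hαD (hmem ▸ U.zero_mem)
  -- below `i₀` everything is stable
  have hstab : ∀ w ∈ U ⊓ F (i₀ + 1), β * w - w * β ∈ U := by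
    intro w hw
    by_contra hcon
    have := Nat.le_findGreatest (P := fun i => ∃ α ∈ U ⊓ F i, β * α - α * β ∉ U) hiN.le ⟨w, hw, hcon⟩
    omega
  refine Finset.sum_lt_sum (fun i _ => hle i) ⟨i₀ + 1, Finset.mem_range.mpr hiN, ?_⟩
  set U' := U ⊓ F (i₀ + 1) with hU'
  -- coefficients of the inverse family
  have hcoef : ∀ w ∈ U', β * w * β ∈ U → ∀ i, ((X - C β) * C w * (X + C β)).coeff i ∈ U := by
    intro w hw hwb i
    have e : (X - C β) * C w * (X + C β) = X * (X * C w) - X * C (β * w - w * β) - C (β * w * β) := by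
      rw [C_sub, C_mul, C_mul, C_mul, C_mul]
      calc (X - C β) * C w * (X + C β)
          = X * (C w * X) + X * (C w * C β) - C β * (C w * X) - C β * C w * C β := by noncomm_ring
        _ = X * (X * C w) + X * (C w * C β) - X * (C β * C w) - C β * C w * C β := by
            rw [← X_mul (p := C w), ← mul_assoc (C β) X, ← X_mul (p := C β), mul_assoc X (C β)]
        _ = _ := by noncomm_ring
    rw [e, coeff_sub, coeff_sub]
    have hC : ∀ r ∈ U, ∀ j, (C r).coeff j ∈ U := fun r hr j => by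
      rw [coeff_C]; split_ifs
      · exact hr
      · exact U.zero_mem
    exact sub_mem (sub_mem (coeff_X_mul_mem (coeff_X_mul_mem (hC w hw.1)) i)
      (coeff_X_mul_mem (hC _ (hstab w hw)) i)) (hC _ hwb i)
  have hinv : ∀ w : R, limConj β ((X - C β) * C w * (X + C β)) = X * (X * (X * (X * C w))) := by
    intro w
    rw [limConj_apply]
    calc (X + C β) * ((X - C β) * C w * (X + C β)) * (X - C β)
        = ((X + C β) * (X - C β)) * C w * ((X + C β) * (X - C β)) := by noncomm_ring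
      _ = _ := by
        rw [add_mul_sub_eq hβ, mul_assoc (X * X) (C w), ← mul_assoc (C w) X X, ← X_mul (p := C w),
          mul_assoc X (C w) X, ← X_mul (p := C w)]
        simp only [mul_assoc]
  have hX4 : ∀ (w : R) (j : ℕ), (X * (X * (X * (X * C w))) : R[X]).coeff j = if j = 4 then w else 0 := by
    intro w j
    rcases j with _ | _ | _ | _ | _ | j <;> simp [coeff_X_mul, coeff_C]
  have hDD : ∀ w ∈ U', β * w * β ∈ F (i₀ + 1) := fun w hw => hanti _ (hD _ w hw.2).2
  by_cases hall : ∀ w ∈ U', β * w * β ∈ U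
  · -- the stable part lies in the limit
    have hsub : U' ≤ limitOf β U ⊓ F (i₀ + 1) := fun w hw => ⟨⟨(X - C β) * C w * (X + C β), 4,
      hcoef w hw (hall w hw), fun j hj => by rw [hinv, hX4, if_neg hj.ne],
      by rw [hinv, hX4, if_pos rfl]⟩, hw.2⟩
    have hlt : ∃ d ∈ limitOf β U ⊓ F (i₀ + 1), d ∉ U' := by
      by_cases hαβ : β * α * β ∈ U
      · refine ⟨β * α - α * β, ⟨?_, (hD i₀ α hα.2).1⟩, fun h => hαD h.1⟩
        set w0 := -(β * α * β) with hw0
        have hw0' : w0 ∈ U' := AddSubgroup.mem_inf.mpr ⟨U.neg_mem hαβ, (F _).neg_mem (hD i₀ α hα.2).2⟩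
        refine ⟨X * (X * (X * (X * C α))) - (X - C β) * C w0 * (X + C β), 5, fun j => ?_, ?_, ?_⟩
        · rw [coeff_sub]
          refine sub_mem ?_ (hcoef w0 hw0' (hall w0 hw0') j)
          rw [hX4]
          split_ifs
          · exact hα.1
          · exact U.zero_mem
        all_goals
          have e : limConj β (X * (X * (X * (X * C α))) - (X - C β) * C w0 * (X + C β)) =
              X * (X * (X * (X * (limConj β (C α) - C w0)))) := by
            rw [map_sub, limConj_X_mul, limConj_X_mul, limConj_X_mul, limConj_X_mul, hinv]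
            simp only [mul_sub]
          rw [e]
        · intro j hj
          rcases j with _ | _ | _ | _ | _ | j
          all_goals first | omega | simp [coeff_X_mul, limConj_coeff, coeff_C, hw0]
        · simp [coeff_X_mul, limConj_coeff, coeff_C]
      · refine ⟨-(β * α * β), ⟨⟨C α, 0, fun j => ?_, fun j hj => absurd hj (Nat.not_lt_zero j), ?_⟩,
          (F _).neg_mem (hD i₀ α hα.2).2⟩, fun h => hαβ (by simpa using h.1)⟩
        · rw [coeff_C]; split_ifs
          · exact hα.1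
          · exact U.zero_mem
        · simp [limConj_coeff, coeff_C]
    obtain ⟨d, hd, hd'⟩ := hlt
    by_contra hcard
    exact hd' ((AddSubgroup.eq_of_le_of_card_ge hsub (not_lt.mp hcard)).symm ▸ hd)
  · -- impossible: twice differentiating stays inside
    exfalso
    push_neg at hall
    obtain ⟨w, hw, hwb⟩ := hall
    have h1 : β * w - w * β ∈ U' := ⟨hstab w hw, hanti _ (hD _ w hw.2).1⟩
    have h2 := hstab _ h1
    have e : β * (β * w - w * β) - (β * w - w * β) * β = -(β * w * β) + -(β * w * β) := by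
      calc β * (β * w - w * β) - (β * w - w * β) * β
          = (β * β) * w + w * (β * β) + (-(β * w * β) + -(β * w * β)) := by noncomm_ring
        _ = _ := by rw [hβ, zero_mul, mul_zero, zero_add, zero_add]
    rw [e] at h2
    refine hwb ?_
    have h3 := nsmul_mem h2 k
    rw [nsmul_add, half_add hk] at h3
    simpa using h3

end CfsgLib.ConjFunctor
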