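import Mathlib.Algebra.Polynomial.Coeff
import Mathlib.Algebra.Polynomial.BigOperators
import Mathlib.Data.Finite.Prod
import Mathlib.GroupTheory.Coset.Card
import Mathlib.GroupTheory.QuotientGroup.Basic
import Mathlib.SetTheory.Cardinal.Finite
import Mathlib.Tactic.NoncommRing
import Mathlib.Tactic.Abel

/-!
Limits of a family of subgroups of a ring under conjugation by a one-parameter unipotent family.
-/

set_option autoImplicit false

open Polynomial

namespace CfsgLib.ConjFunctor

variable {R : Type*} [Ring R]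

/-- The lowest coefficients of the image of the polynomials with coefficients in `U`. -/
def leadSub (f : R[X] →+ R[X]) (hf : ∀ u, f (X * u) = X * f u) (U : AddSubgroup R) : AddSubgroup R where
  carrier := {w | ∃ (u : R[X]) (k : ℕ), (∀ i, u.coeff i ∈ U) ∧ (∀ j < k, (f u).coeff j = 0) ∧ (f u).coeff k = w}
  zero_mem' := ⟨0, 0, fun i => by simp, by simp, by simp⟩
  neg_mem' := by
    rintro w ⟨u, k, hu, hlow, rfl⟩
    exact ⟨-u, k, fun i => by rw [coeff_neg]; exact U.neg_mem (hu i),
      fun j hj => by rw [map_neg, coeff_neg, hlow j hj, neg_zero], by rw [map_neg, coeff_neg]⟩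
  add_mem' := by
    have hshift : ∀ (u : R[X]) (k d : ℕ), (∀ i, u.coeff i ∈ U) → (∀ j < k, (f u).coeff j = 0) →
        (∀ i, (X ^ d * u).coeff i ∈ U) ∧ (∀ j < k + d, (f (X ^ d * u)).coeff j = 0) ∧
          (f (X ^ d * u)).coeff (k + d) = (f u).coeff k := by
      intro u k d hu hlow
      induction d with
      | zero => simpa using ⟨hu, hlow⟩
      | succ d ih =>
        rw [pow_succ', mul_assoc, hf]
        refine ⟨fun i => ?_, fun j hj => ?_, ?_⟩
        · rcases i with _ | i
          · rw [coeff_X_mul_zero]; exact U.zero_mem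
          · rw [coeff_X_mul]; exact ih.1 i
        · rcases j with _ | j
          · rw [coeff_X_mul_zero]
          · rw [coeff_X_mul]; exact ih.2.1 j (by omega)
        · rw [← add_assoc, coeff_X_mul]; exact ih.2.2
    rintro w w' ⟨u, k, hu, hlow, rfl⟩ ⟨u', k', hu', hlow', rfl⟩
    obtain ⟨h1, h2, h3⟩ := hshift u k k' hu hlow
    obtain ⟨h1', h2', h3'⟩ := hshift u' k' k hu' hlow'
    refine ⟨X ^ k' * u + X ^ k * u', k + k', fun i => by rw [coeff_add]; exact U.add_mem (h1 i) (h1' i),
      fun j hj => ?_, ?_⟩
    · rw [map_add, coeff_add, h2 j hj, h2' j (by omega), add_zero]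
    · rw [map_add, coeff_add, h3]
      congr 1
      rw [add_comm k k']; exact h3'

/-- A subgroup of tuples all of whose first nonzero entries lie in `L` has at most `|L| ^ N` members. -/
lemma card_le_pow_of_lead [Finite R] (L : AddSubgroup R) : ∀ (N : ℕ) (I : AddSubgroup (Fin N → R)),
    (∀ x ∈ I, ∀ k : Fin N, (∀ j < k, x j = 0) → x k ∈ L) → Nat.card I ≤ Nat.card L ^ N := by
  intro N
  induction N with
  | zero =>
    intro I _
    rw [pow_zero]
    haveI : Subsingleton ↥I := ⟨fun a b => Subtype.ext (funext fun i => i.elim0)⟩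
    exact (Nat.card_of_subsingleton (0 : ↥I)).le
  | succ N ih =>
    intro I hI
    let π : ↥I →+ ↥L :=
      { toFun := fun x => ⟨x.1 0, hI x.1 x.2 0 fun j hj => absurd hj (Fin.not_lt_zero j)⟩
        map_zero' := rfl
        map_add' := fun _ _ => rfl }
    let τ : ↥π.ker →+ (Fin N → R) :=
      { toFun := fun x => Fin.tail x.1.1
        map_zero' := rfl
        map_add' := fun _ _ => rfl }
    have h0 : ∀ x : ↥π.ker, x.1.1 0 = 0 := fun x => congrArg Subtype.val x.2
    have hτ : Function.Injective τ := by
      intro x y h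
      refine Subtype.ext (Subtype.ext (funext fun i => ?_))
      cases i using Fin.cases with
      | zero => rw [h0, h0]
      | succ i => exact congrFun h i
    have h1 : Nat.card ↥π.ker ≤ Nat.card L ^ N := by
      rw [Nat.card_congr (AddMonoidHom.ofInjective hτ).toEquiv]
      refine ih τ.range ?_
      rintro _ ⟨x, rfl⟩ k hk
      refine hI x.1.1 x.1.2 k.succ fun j hj => ?_
      cases j using Fin.cases with
      | zero => exact h0 x
      | succ j => exact hk j (Fin.succ_lt_succ_iff.mp hj)
    rw [AddSubgroup.card_eq_card_quotient_mul_card_addSubgroup π.ker,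
      Nat.card_congr (QuotientAddGroup.quotientKerEquivRange π).toEquiv, pow_succ']
    exact Nat.mul_le_mul (Nat.card_le_card_of_injective _ Subtype.val_injective) h1

/-- The limit is at least as large as the subgroup. -/
theorem card_le_leadSub [Finite R] (f : R[X] →+ R[X]) (hf : ∀ u, f (X * u) = X * f u) (hinj : Function.Injective f)
    (hdeg : ∀ (u : R[X]) (n : ℕ), (∀ i, n ≤ i → u.coeff i = 0) → ∀ i, n + 2 ≤ i → (f u).coeff i = 0)
    (U : AddSubgroup R) : Nat.card U ≤ Nat.card (leadSub f hf U) := by
  classical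
  set L := leadSub f hf U
  have key : ∀ n : ℕ, Nat.card U ^ n ≤ Nat.card L ^ (n + 2) := by
    intro n
    let P : (Fin n → ↥U) →+ R[X] :=
      { toFun := fun t => ∑ i : Fin n, monomial (i : ℕ) (t i : R)
        map_zero' := by simp
        map_add' := fun t t' => by simp [Finset.sum_add_distrib] }
    have hP : ∀ (t : Fin n → ↥U) (i : ℕ), (P t).coeff i = if h : i < n then (t ⟨i, h⟩ : R) else 0 := by
      intro t i
      show (∑ j : Fin n, monomial (j : ℕ) (t j : R)).coeff i = _
      rw [finset_sum_coeff]
      split_ifs with h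
      · rw [Finset.sum_eq_single ⟨i, h⟩]
        · rw [coeff_monomial, if_pos rfl]
        · intro b _ hb
          rw [coeff_monomial, if_neg fun e => hb (Fin.ext e)]
        · simp
      · refine Finset.sum_eq_zero fun b _ => ?_
        rw [coeff_monomial, if_neg fun e => h (by rw [← e]; exact b.2)]
    let F : (Fin n → ↥U) →+ (Fin (n + 2) → R) :=
      { toFun := fun t i => (f (P t)).coeff i
        map_zero' := by funext i; simp
        map_add' := fun t t' => by funext i; simp [map_add] }
    have hF : Function.Injective F := by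
      intro t t' h
      have h1 : f (P t) = f (P t') := by
        ext i
        by_cases hi : i < n + 2
        · exact congrFun h ⟨i, hi⟩
        · rw [hdeg _ n (fun j hj => by rw [hP, dif_neg (by omega)]) i (by omega),
            hdeg _ n (fun j hj => by rw [hP, dif_neg (by omega)]) i (by omega)]
      funext i
      have h2 := congrArg (fun q => q.coeff (i : ℕ)) (hinj h1)
      simp only [hP, dif_pos i.2] at h2
      exact Subtype.ext h2
    calc Nat.card U ^ n = Nat.card (Fin n → ↥U) := by rw [Nat.card_fun, Nat.card_fin]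
      _ = Nat.card F.range := Nat.card_congr (AddMonoidHom.ofInjective hF).toEquiv
      _ ≤ _ := card_le_pow_of_lead L _ _ ?_
    rintro _ ⟨t, rfl⟩ k hk
    refine ⟨P t, k, fun i => ?_, fun j hj => hk ⟨j, hj.trans k.2⟩ hj, rfl⟩
    rw [hP]
    split_ifs
    · exact (t _).2
    · exact U.zero_mem
  by_contra hlt
  rw [not_le] at hlt
  set b := Nat.card L
  -- Bernoulli: `b + 1` beats `b`
  have hb : 0 < b := Nat.card_pos
  have hbern : ∀ n : ℕ, b ^ (n + 1) + (n + 1) * b ^ n ≤ (b + 1) ^ (n + 1) := by
    intro n
    induction n with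
    | zero => simp
    | succ n ih =>
      calc b ^ (n + 1 + 1) + (n + 1 + 1) * b ^ (n + 1)
          ≤ (b ^ (n + 1) + (n + 1) * b ^ n) * (b + 1) := by ring_nf; omega
        _ ≤ (b + 1) ^ (n + 1) * (b + 1) := Nat.mul_le_mul_right _ ih
        _ = _ := (pow_succ _ _).symm
  set n := b ^ 3
  have h1 : (b + 1) ^ (n + 1) ≤ b ^ (n + 1 + 2) := le_trans (Nat.pow_le_pow_left hlt _) (key (n + 1))
  have h2 := (hbern n).trans h1
  have h3 : b ^ (n + 1 + 2) = b ^ 3 * b ^ n := by rw [← pow_add]; congr 1; omega
  rw [h3] at h2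
  have h4 : (n + 1) * b ^ n ≤ b ^ 3 * b ^ n := le_trans (Nat.le_add_left _ _) h2
  have := Nat.le_of_mul_le_mul_right h4 (pow_pos hb n)
  omega

variable (β : R)

/-- Left multiplication by `X + β`. -/
noncomputable def limLeft : R[X] →+ R[X] where
  toFun u := (X + C β) * u
  map_zero' := mul_zero _
  map_add' _ _ := mul_add _ _ _

/-- Conjugation by `X + β`, scaled. -/
noncomputable def limConj : R[X] →+ R[X] where
  toFun u := (X + C β) * u * (X - C β)
  map_zero' := by simp
  map_add' _ _ := by rw [mul_add, add_mul]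

lemma limLeft_apply (u : R[X]) : limLeft β u = (X + C β) * u := rfl

lemma limConj_apply (u : R[X]) : limConj β u = (X + C β) * u * (X - C β) := rfl

lemma limLeft_X_mul (u : R[X]) : limLeft β (X * u) = X * limLeft β u := by
  rw [limLeft_apply, limLeft_apply, ← mul_assoc, ← mul_assoc, ← X_mul]

lemma limConj_X_mul (u : R[X]) : limConj β (X * u) = X * limConj β u := by
  rw [limConj_apply, limConj_apply, ← mul_assoc (X + C β), ← X_mul]
  simp only [mul_assoc]

variable {β}

lemma sub_mul_add_eq (hβ : β * β = 0) : (X - C β) * (X + C β) = X * X := by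
  have h : C β * C β = (0 : R[X]) := by rw [← C_mul, hβ, C_0]
  calc (X - C β) * (X + C β) = X * X + (X * C β - C β * X) - C β * C β := by noncomm_ring
    _ = X * X := by rw [h, X_mul (p := C β), sub_self, add_zero, sub_zero]

lemma add_mul_sub_eq (hβ : β * β = 0) : (X + C β) * (X - C β) = X * X := by
  have h : C β * C β = (0 : R[X]) := by rw [← C_mul, hβ, C_0]
  calc (X + C β) * (X - C β) = X * X + (C β * X - X * C β) - C β * C β := by noncomm_ring
    _ = X * X := by rw [h, X_mul (p := C β), sub_self, add_zero, sub_zero]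

lemma X_mul_X_mul_cancel {u : R[X]} (h : X * X * u = 0) : u = 0 := by
  ext i
  have := congrArg (fun q => q.coeff (i + 2)) h
  simpa [mul_assoc, coeff_X_mul] using this

lemma limLeft_injective (hβ : β * β = 0) : Function.Injective (limLeft β) := by
  rw [injective_iff_map_eq_zero]
  intro u hu
  refine X_mul_X_mul_cancel ?_
  rw [← sub_mul_add_eq hβ, mul_assoc, ← limLeft_apply, hu, mul_zero]

lemma limConj_injective (hβ : β * β = 0) : Function.Injective (limConj β) := by
  rw [injective_iff_map_eq_zero]
  intro u hu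
  refine X_mul_X_mul_cancel (X_mul_X_mul_cancel ?_)
  calc X * X * (X * X * u) = X * X * u * (X * X) := by
        rw [mul_assoc (X * X) u]; congr 1; rw [mul_assoc X X u, X_mul, mul_assoc, X_mul (p := u * X), mul_assoc]
    _ = (X - C β) * ((X + C β) * u * (X - C β)) * (X + C β) := by
        conv_lhs => rw [← sub_mul_add_eq hβ]
        simp only [mul_assoc]
    _ = 0 := by rw [← limConj_apply, hu, mul_zero, zero_mul]

lemma limLeft_coeff (u : R[X]) (i : ℕ) :
    (limLeft β u).coeff i = (X * u).coeff i + β * u.coeff i := by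
  rw [limLeft_apply, add_mul, coeff_add, coeff_C_mul]

lemma limConj_coeff (u : R[X]) (i : ℕ) :
    (limConj β u).coeff i = (X * (X * u)).coeff i + (X * (C β * u - u * C β)).coeff i - β * u.coeff i * β := by
  have e : limConj β u = X * (X * u) + X * (C β * u - u * C β) - C β * u * C β := by
    rw [limConj_apply]
    calc (X + C β) * u * (X - C β) = X * (u * X) + C β * (u * X) - X * (u * C β) - C β * u * C β := by noncomm_ring
      _ = X * (X * u) + X * (C β * u) - X * (u * C β) - C β * u * C β := by
        rw [X_mul (p := u), ← mul_assoc (C β) u X, X_mul (p := C β * u)]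
      _ = _ := by noncomm_ring
  rw [e, coeff_sub, coeff_add, coeff_mul_C, coeff_C_mul]

lemma limLeft_degree (u : R[X]) (n : ℕ) (h : ∀ i, n ≤ i → u.coeff i = 0) :
    ∀ i, n + 2 ≤ i → (limLeft β u).coeff i = 0 := by
  intro i hi
  obtain ⟨i, rfl⟩ : ∃ j, i = j + 1 := ⟨i - 1, by omega⟩
  rw [limLeft_coeff, coeff_X_mul, h i (by omega), h (i + 1) (by omega), mul_zero, add_zero]

lemma limConj_degree (u : R[X]) (n : ℕ) (h : ∀ i, n ≤ i → u.coeff i = 0) :
    ∀ i, n + 2 ≤ i → (limConj β u).coeff i = 0 := by
  intro i hi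
  obtain ⟨i, rfl⟩ : ∃ j, i = j + 2 := ⟨i - 2, by omega⟩
  rw [limConj_coeff, coeff_X_mul, coeff_X_mul, coeff_X_mul, coeff_sub, coeff_C_mul, coeff_mul_C, h i (by omega),
    h (i + 1) (by omega), h (i + 2) (by omega)]
  simp

/-- Lowest coefficients multiply. -/
lemma lead_mul_eq_zero {P Q : R[X]} {i j : ℕ} (h : P * Q = 0) (hP : ∀ a < i, P.coeff a = 0)
    (hQ : ∀ b < j, Q.coeff b = 0) : P.coeff i * Q.coeff j = 0 := by
  have h1 := congrArg (fun q => q.coeff (i + j)) h
  rw [coeff_mul, Finset.sum_eq_single (i, j)] at h1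
  · simpa using h1
  · rintro ⟨a, b⟩ hab hne
    rw [Finset.HasAntidiagonal.mem_antidiagonal] at hab
    by_cases ha : a < i
    · simp [hP a ha]
    · have : b < j := by
        by_contra hb
        exact hne (Prod.ext (by omega) (by omega))
      simp [hQ b this]
  · intro hni
    exact absurd (Finset.HasAntidiagonal.mem_antidiagonal.mpr (rfl : i + j = i + j)) hni

end CfsgLib.ConjFunctor
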