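import Cfsg.Agent.Alperin.Induction
import Cfsg.Agent.Alperin.Centric
import Cfsg.Agent.ConjFunctor.SylowIn
import Cfsg.Agent.ConjFunctor.Basic

/-!
Control of fusion passing from a normal subgroup to the group.
-/

set_option autoImplicit false

namespace CfsgLib.ConjFunctor

variable {G : Type*} [Group G] [Finite G] {p : ℕ} [Fact p.Prime]

lemma mem_centralizer_conj {H : Subgroup G} {h c : G}
    (hc : c ∈ Subgroup.centralizer ((conjOf h H : Subgroup G) : Set G)) :
    h⁻¹ * c * h ∈ Subgroup.centralizer (H : Set G) := fun a ha => by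
  have h1 := hc _ (conj_mem_conjOf (g := h) ha)
  calc a * (h⁻¹ * c * h) = h⁻¹ * (h * a * h⁻¹ * c) * h := by group
    _ = h⁻¹ * (c * (h * a * h⁻¹)) * h := by rw [h1]
    _ = h⁻¹ * c * h * a := by group

lemma conjOf_congr_centralizer {H : Subgroup G} {h c : G} (hc : c ∈ Subgroup.centralizer (H : Set G)) :
    conjOf (h * c) H = conjOf h H := by
  rw [← conjOf_conjOf]
  congr 1
  exact mem_normalizer_iff_conjOf.mp (Subgroup.centralizer_le_normalizer _ hc)

/-- `g = h * c` with `h ∈ M` and `c` centralizing `H`. -/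
def SplitsIn (M H : Subgroup G) (g : G) : Prop :=
  ∃ h ∈ M, ∃ c ∈ Subgroup.centralizer (H : Set G), g = h * c

lemma SplitsIn.comp {M H : Subgroup G} {g k : G} (hg : SplitsIn M H g) (hk : SplitsIn M (conjOf g H) k) :
    SplitsIn M H (k * g) := by
  obtain ⟨h, hh, c, hc, rfl⟩ := hg
  obtain ⟨h', hh', c', hc', rfl⟩ := hk
  refine ⟨h' * h, M.mul_mem hh' hh, h⁻¹ * c' * h * c, Subgroup.mul_mem _ ?_ hc, by group⟩
  refine mem_centralizer_conj ?_
  rwa [conjOf_congr_centralizer hc] at hc'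

lemma SplitsIn.mono {M H K : Subgroup G} {g : G} (hHK : H ≤ K) (hg : SplitsIn M K g) : SplitsIn M H g := by
  obtain ⟨h, hh, c, hc, e⟩ := hg
  exact ⟨h, hh, c, Subgroup.centralizer_le hHK hc, e⟩

/-- If every member of `𝒱` controls strong fusion, so does the intersection of their normalizers. -/
theorem splitsIn_iInf_normalizer (S : Sylow p G) (𝒱 : Set (Subgroup G)) (hle : ∀ V ∈ 𝒱, V ≤ (S : Subgroup G))
    (hn : ∀ V ∈ 𝒱, (S : Subgroup G) ≤ Subgroup.normalizer (V : Set G))
    (hctrl : ∀ V ∈ 𝒱, ∀ A : Subgroup G, A ≤ (S : Subgroup G) → ∀ g, conjOf g A ≤ (S : Subgroup G) →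
      SplitsIn (Subgroup.normalizer (V : Set G)) A g) :
    ∀ A : Subgroup G, A ≤ (S : Subgroup G) → ∀ g, conjOf g A ≤ (S : Subgroup G) →
      SplitsIn (⨅ V ∈ 𝒱, Subgroup.normalizer (V : Set G)) A g := by
  set M := ⨅ V ∈ 𝒱, Subgroup.normalizer (V : Set G) with hM
  intro A hA g hgA
  refine Alperin.centric_radical_induction S (fun H g => SplitsIn M H g)
    (fun H K g hHK _ _ h => h.mono hHK) (fun H g k _ _ _ h1 h2 => h1.comp h2)
    (fun H c _ hc => ⟨1, M.one_mem, c, hc, (one_mul c).symm⟩) ?_ A g hA hgA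
  intro U T hT _ _ hrad n hn' _
  have hUS : U ≤ (S : Subgroup G) := hT ▸ inf_le_left
  refine ⟨n, ?_, 1, Subgroup.one_mem _, (mul_one n).symm⟩
  simp only [hM, Subgroup.mem_iInf]
  intro V hV
  set N := Subgroup.normalizer (U : Set G) with hN
  have hnU : conjOf n U = U := mem_normalizer_iff_conjOf.mp hn'
  have hsplit : ∀ m ∈ N, ∃ h ∈ Subgroup.normalizer (V : Set G) ⊓ N, ∃ c ∈ Subgroup.centralizer (U : Set G),
      m = h * c := by
    intro m hm
    obtain ⟨h, hh, c, hc, e⟩ := hctrl V hV U hUS m (by rw [mem_normalizer_iff_conjOf.mp hm]; exact hUS)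
    refine ⟨h, ⟨hh, ?_⟩, c, hc, e⟩
    have : h = m * c⁻¹ := by rw [e]; group
    rw [this]
    exact N.mul_mem hm (N.inv_mem (Subgroup.centralizer_le_normalizer _ hc))
  set X := (V ⊓ N) ⊔ Subgroup.centralizer (U : Set G) with hX
  have hCN : Subgroup.centralizer (U : Set G) ≤ N := Subgroup.centralizer_le_normalizer _
  have hXN : X ≤ N := sup_le inf_le_right hCN
  have hCn : ∀ m ∈ N, conjOf m (Subgroup.centralizer (U : Set G)) ≤ Subgroup.centralizer (U : Set G) := by
    intro m hm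
    refine conjOf_le_iff.mpr fun x hx => ?_
    have h1 : (m⁻¹)⁻¹ * x * m⁻¹ ∈ Subgroup.centralizer (U : Set G) :=
      mem_centralizer_conj (H := U) (h := m⁻¹) (c := x)
        (by rw [mem_normalizer_iff_conjOf.mp (N.inv_mem hm)]; exact hx)
    simpa using h1
  have hNX : N ≤ Subgroup.normalizer (X : Set G) := by
    intro m hm
    obtain ⟨h, hh, c, hc, rfl⟩ := hsplit m hm
    refine Subgroup.mul_mem _ ?_ (Subgroup.le_normalizer (Subgroup.mem_sup_right hc))
    refine mem_normalizer_iff_conjOf.mpr (Subgroup.eq_of_le_of_card_ge ?_ (card_conjOf _ _).ge)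
    show Subgroup.map _ X ≤ X
    rw [hX, Subgroup.map_sup]
    exact sup_le_sup (conjOf_le_iff.mpr fun x hx => ⟨(Subgroup.mem_normalizer_iff.mp hh.1 x).mp hx.1,
      N.mul_mem (N.mul_mem hh.2 hx.2) (N.inv_mem hh.2)⟩) (hCn h hh.2)
  have h1 : V ⊓ N ≤ U := (le_inf (inf_le_left.trans (hle V hV)) le_sup_left).trans
    (hrad X le_sup_right hXN hNX
      (sup_le ((le_inf (inf_le_left.trans (hle V hV)) le_sup_left).trans le_sup_right) le_sup_left))
  have hVU : V ≤ U := by
    by_contra hcon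
    have hlt : U < U ⊔ V := lt_of_le_of_ne le_sup_left fun h => hcon (le_sup_right.trans h.ge)
    refine (Alperin.lt_inf_normalizer (S.2.to_le (sup_le hUS (hle V hV))) hlt).not_ge ?_
    rintro x ⟨hx, hxN⟩
    have hx' : x ∈ ((U ⊔ V : Subgroup G) : Set G) := hx
    rw [Subgroup.coe_mul_of_left_le_normalizer_right U V (hUS.trans (hn V hV))] at hx'
    obtain ⟨u, hu, v, hv, rfl⟩ := Set.mem_mul.mp hx'
    refine U.mul_mem hu (h1 ⟨hv, ?_⟩)
    have := N.mul_mem (N.inv_mem (Subgroup.le_normalizer hu)) hxN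
    simpa using this
  obtain ⟨h, hh, c, hc, rfl⟩ := hsplit n hn'
  rw [mem_normalizer_iff_conjOf, conjOf_congr_centralizer (Subgroup.centralizer_le hVU hc)]
  exact mem_normalizer_iff_conjOf.mp hh.1

/-- Control of fusion inside `S ⊓ N` extends to `S`, for `N` normal. -/
theorem splitsIn_normalizer_of_normal (S : Sylow p G) (N : Subgroup G) [N.Normal] {W : Subgroup G}
    (hWS : W ≤ (S : Subgroup G) ⊓ N) (hWn : (S : Subgroup G) ≤ Subgroup.normalizer (W : Set G))
    (hctrl : ∀ B : Subgroup G, B ≤ (S : Subgroup G) ⊓ N → ∀ g, conjOf g B ≤ (S : Subgroup G) ⊓ N →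
      ∃ h ∈ Subgroup.normalizer (W : Set G), ∃ c ∈ Subgroup.centralizer (B : Set G) ⊓ N, g = h * c) :
    ∀ A : Subgroup G, A ≤ (S : Subgroup G) → ∀ g, conjOf g A ≤ (S : Subgroup G) →
      SplitsIn (Subgroup.normalizer (W : Set G)) A g := by
  intro A hA g hgA
  refine Alperin.centric_radical_induction S (fun H g => SplitsIn (Subgroup.normalizer (W : Set G)) H g)
    (fun H K g hHK _ _ h => h.mono hHK) (fun H g k _ _ _ h1 h2 => h1.comp h2)
    (fun H c _ hc => ⟨1, Subgroup.one_mem _, c, hc, (one_mul c).symm⟩) ?_ A g hA hgA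
  intro U T hT hFN _ hrad n hn _
  have hUS : U ≤ (S : Subgroup G) := hT ▸ inf_le_left
  set NU := Subgroup.normalizer (U : Set G) with hNU
  set U0 := U ⊓ N with hU0
  have hU0le : U0 ≤ (S : Subgroup G) ⊓ N := inf_le_inf_right _ hUS
  have hU0n : NU ≤ Subgroup.normalizer (U0 : Set G) := by
    intro m hm
    refine mem_normalizer_iff_conjOf.mpr (Subgroup.eq_of_le_of_card_ge
      (conjOf_le_iff.mpr fun x hx => ⟨(Subgroup.mem_normalizer_iff.mp hm x).mp hx.1, ?_⟩) (card_conjOf _ _).ge)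
    exact ‹N.Normal›.conj_mem x hx.2 m
  set C0 := Subgroup.centralizer (U0 : Set G) ⊓ N with hC0
  set W0 := W ⊓ Subgroup.normalizer (U0 : Set G) with hW0
  set M := W0 ⊔ C0 with hMdef
  have hMN : M ≤ Subgroup.normalizer (U0 : Set G) :=
    sup_le inf_le_right (inf_le_left.trans (Subgroup.centralizer_le_normalizer _))
  have hC0n : Subgroup.normalizer (U0 : Set G) ≤ Subgroup.normalizer (C0 : Set G) := by
    intro m hm
    refine mem_normalizer_iff_conjOf.mpr (Subgroup.eq_of_le_of_card_ge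
      (conjOf_le_iff.mpr fun x hx => ⟨?_, ‹N.Normal›.conj_mem x hx.2 m⟩) (card_conjOf _ _).ge)
    have h1 : (m⁻¹)⁻¹ * x * m⁻¹ ∈ Subgroup.centralizer (U0 : Set G) :=
      mem_centralizer_conj (H := U0) (h := m⁻¹) (c := x)
        (by rw [mem_normalizer_iff_conjOf.mp (Subgroup.inv_mem _ hm)]; exact hx.1)
    simpa using h1
  have hNM : Subgroup.normalizer (U0 : Set G) ≤ Subgroup.normalizer (M : Set G) := by
    intro m hm
    obtain ⟨h, hh, c, hc, e⟩ := hctrl U0 hU0le m (by rw [mem_normalizer_iff_conjOf.mp hm]; exact hU0le)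
    have hhN : h ∈ Subgroup.normalizer (U0 : Set G) := by
      rw [show h = m * c⁻¹ by rw [e]; group]
      exact Subgroup.mul_mem _ hm (Subgroup.inv_mem _ (Subgroup.centralizer_le_normalizer _ hc.1))
    rw [e]
    refine Subgroup.mul_mem _ ?_ (Subgroup.le_normalizer (Subgroup.mem_sup_right hc))
    refine mem_normalizer_iff_conjOf.mpr (Subgroup.eq_of_le_of_card_ge ?_ (card_conjOf _ _).ge)
    show Subgroup.map _ M ≤ M
    rw [hMdef, Subgroup.map_sup]
    exact sup_le_sup (conjOf_le_iff.mpr fun x hx => ⟨(Subgroup.mem_normalizer_iff.mp hh x).mp hx.1,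
      Subgroup.mul_mem _ (Subgroup.mul_mem _ hhN hx.2) (Subgroup.inv_mem _ hhN)⟩)
      (mem_normalizer_iff_conjOf.mp (hC0n hhN)).le
  set Y := NU ⊓ M with hY
  have hYN : Y ≤ NU := inf_le_left
  have hNY : NU ≤ Subgroup.normalizer (Y : Set G) := by
    intro m hm
    refine mem_normalizer_iff_conjOf.mpr (Subgroup.eq_of_le_of_card_ge
      (conjOf_le_iff.mpr fun x hx => ⟨NU.mul_mem (NU.mul_mem hm hx.1) (NU.inv_mem hm),
        (Subgroup.mem_normalizer_iff.mp (hNM (hU0n hm)) x).mp hx.2⟩) (card_conjOf _ _).ge)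
  have hMle : M ≤ N := sup_le (inf_le_left.trans (hWS.trans inf_le_right)) inf_le_right
  -- elements of order prime to `p` of `Y` centralize `U`
  have hcop : ∀ y ∈ Y, (orderOf y).Coprime p → y ∈ Subgroup.centralizer (U : Set G) := by
    intro y hy hyc
    have hyU0 : ∀ x ∈ U0, y * x = x * y := by
      have hW0n : W0 ≤ Subgroup.normalizer (C0 : Set G) := inf_le_right.trans hC0n
      have hy' : y ∈ ((W0 ⊔ C0 : Subgroup G) : Set G) := hy.2
      rw [Subgroup.coe_mul_of_left_le_normalizer_right W0 C0 hW0n] at hy'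
      obtain ⟨w, hw, c, hc, hwc⟩ := Set.mem_mul.mp hy'
      obtain ⟨k, hk⟩ := S.2 ⟨w, (hWS hw.1).1⟩
      have hk' : w ^ p ^ k = 1 := by simpa using congrArg Subtype.val hk
      let π := QuotientGroup.mk' (C0.subgroupOf (Subgroup.normalizer (C0 : Set G)))
      have hwn : w ∈ Subgroup.normalizer (C0 : Set G) := hW0n hw
      have hcn : c ∈ Subgroup.normalizer (C0 : Set G) := Subgroup.le_normalizer hc
      have hyn : y ∈ Subgroup.normalizer (C0 : Set G) := hwc ▸ Subgroup.mul_mem _ hwn hcn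
      have e1 : π ⟨y, hyn⟩ = π ⟨w, hwn⟩ := by
        have h1 : (⟨y, hyn⟩ : ↥(Subgroup.normalizer (C0 : Set G))) = ⟨w, hwn⟩ * ⟨c, hcn⟩ := Subtype.ext hwc.symm
        rw [h1, map_mul, show π ⟨c, hcn⟩ = 1 from (QuotientGroup.eq_one_iff _).mpr hc, mul_one]
      have e2 : π ⟨y, hyn⟩ = 1 := orderOf_eq_one_iff.mp (Nat.eq_one_of_dvd_coprimes (hyc.pow_right k)
        (by
          exact (orderOf_map_dvd π _).trans (Subgroup.orderOf_mk y hyn).dvd)
        (by
          rw [e1]
          refine (orderOf_map_dvd π _).trans (orderOf_dvd_of_pow_eq_one (Subtype.ext ?_))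
          simpa using hk'))
      have hyC0 : y ∈ C0 :=
        ((QuotientGroup.eq_one_iff (⟨y, hyn⟩ : ↥(Subgroup.normalizer (C0 : Set G)))).mp e2 : _)
      exact fun x hx => (hyC0.1 x hx).symm
    intro u hu
    set v := y * u * y⁻¹ * u⁻¹ with hv
    have hvU : v ∈ U0 := by
      refine ⟨U.mul_mem ((Subgroup.mem_normalizer_iff.mp hy.1 u).mp hu) (U.inv_mem hu), ?_⟩
      have := N.mul_mem (hMle hy.2) (‹N.Normal›.conj_mem _ (N.inv_mem (hMle hy.2)) u)
      simpa [hv, mul_assoc] using this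
    have hpow : ∀ k : ℕ, y ^ k * u * (y ^ k)⁻¹ = v ^ k * u := by
      intro k
      induction k with
      | zero => simp
      | succ k ih =>
        calc y ^ (k + 1) * u * (y ^ (k + 1))⁻¹ = y * (y ^ k * u * (y ^ k)⁻¹) * y⁻¹ := by rw [pow_succ']; group
          _ = (y * v ^ k) * y⁻¹ * (v * u) := by rw [ih, hv]; group
          _ = v ^ k * (v * u) := by rw [hyU0 _ (U0.pow_mem hvU k), mul_inv_cancel_right]
          _ = v ^ (k + 1) * u := by rw [pow_succ]; group
    have h1 := hpow (orderOf y)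
    rw [pow_orderOf_eq_one] at h1
    obtain ⟨k, hk⟩ := S.2 ⟨v, hUS hvU.1⟩
    have h2 : v = 1 := orderOf_eq_one_iff.mp (Nat.eq_one_of_dvd_coprimes (hyc.pow_right k)
      (orderOf_dvd_of_pow_eq_one (by simpa using h1))
      (orderOf_dvd_of_pow_eq_one (by simpa using congrArg Subtype.val hk)))
    rw [hv, mul_inv_eq_one, mul_inv_eq_iff_eq_mul] at h2
    exact h2.symm
  set X := Y ⊔ Subgroup.centralizer (U : Set G) with hX
  have hCN : Subgroup.centralizer (U : Set G) ≤ NU := Subgroup.centralizer_le_normalizer _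
  have hNC : NU ≤ Subgroup.normalizer ((Subgroup.centralizer (U : Set G) : Subgroup G) : Set G) := by
    intro m hm
    refine mem_normalizer_iff_conjOf.mpr (Subgroup.eq_of_le_of_card_ge
      (conjOf_le_iff.mpr fun x hx => ?_) (card_conjOf _ _).ge)
    have h1 : (m⁻¹)⁻¹ * x * m⁻¹ ∈ Subgroup.centralizer (U : Set G) :=
      mem_centralizer_conj (H := U) (h := m⁻¹) (c := x)
        (by rw [mem_normalizer_iff_conjOf.mp (NU.inv_mem hm)]; exact hx)
    simpa using h1
  have hXN : X ≤ NU := sup_le hYN hCN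
  have hNX : NU ≤ Subgroup.normalizer (X : Set G) := by
    intro m hm
    rw [mem_normalizer_iff_conjOf, hX, conjOf, Subgroup.map_sup]
    exact congrArg₂ (· ⊔ ·) (mem_normalizer_iff_conjOf.mp (hNY hm)) (mem_normalizer_iff_conjOf.mp (hNC hm))
  have hXgen : X ≤ Subgroup.centralizer (U : Set G) ⊔ ((S : Subgroup G) ⊓ X) := by
    set L := Subgroup.centralizer (U : Set G) ⊔ ((S : Subgroup G) ⊓ Y) with hL
    have hYle : Y ≤ L := by
      set K := Subgroup.centralizer (U : Set G) ⊓ Y with hK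
      haveI hKn : (K.subgroupOf Y).Normal := (Subgroup.normal_subgroupOf_iff_le_normalizer inf_le_right).mpr (by
        intro y hy
        rw [mem_normalizer_iff_conjOf, conjOf, Subgroup.map_inf _ _ _ (MulAut.conj y).injective]
        exact congrArg₂ (· ⊓ ·) (mem_normalizer_iff_conjOf.mp (hNC hy.1))
          (mem_normalizer_iff_conjOf.mp (Subgroup.le_normalizer hy)))
      have hpg : IsPGroup p (↥Y ⧸ K.subgroupOf Y) := by
        intro q
        obtain ⟨d, rfl⟩ := QuotientGroup.mk'_surjective _ q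
        obtain ⟨k, m, hm, hkm⟩ := Nat.exists_eq_pow_mul_and_not_dvd (orderOf_pos d).ne' p (Fact.out : p.Prime).ne_one
        refine ⟨k, ?_⟩
        rw [← map_pow, QuotientGroup.mk'_apply, QuotientGroup.eq_one_iff]
        refine ⟨hcop _ (d ^ p ^ k).2 ?_, (d ^ p ^ k).2⟩
        show (orderOf ((d ^ p ^ k : ↥Y) : G)).Coprime p
        rw [Subgroup.orderOf_coe]
        have hd : orderOf (d ^ p ^ k) ∣ m := by
          apply orderOf_dvd_of_pow_eq_one
          rw [← pow_mul, ← hkm, pow_orderOf_eq_one]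
        exact ((((Fact.out : p.Prime).coprime_iff_not_dvd).mpr hm).symm).coprime_dvd_left hd
      obtain ⟨a, ha⟩ := IsPGroup.iff_card.mp hpg
      have hsyl : ¬ p ∣ ((S : Subgroup G) ⊓ Y).relIndex Y := Alperin.not_dvd_relIndex_inf S hFN hYN hNY
      rw [← Subgroup.relIndex_eq_one]
      refine Nat.eq_one_of_dvd_coprimes ((((Fact.out : p.Prime).coprime_iff_not_dvd).mpr hsyl).symm.pow_right a) ?_ ?_
      · exact Subgroup.relIndex_dvd_of_le_left Y le_sup_right
      · rw [← ha]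
        exact Subgroup.relIndex_dvd_of_le_left Y (inf_le_left.trans le_sup_left)
    exact sup_le (hYle.trans (sup_le_sup_left (inf_le_inf_left _ le_sup_left) _)) le_sup_left
  have hWU : W ⊓ NU ≤ U := by
    refine le_trans ?_ (hrad X le_sup_right hXN hNX hXgen)
    exact le_inf (inf_le_left.trans (hWS.trans inf_le_left))
      (le_trans (le_inf inf_le_right ((inf_le_inf_left _ hU0n).trans le_sup_left)) le_sup_left)
  have hWle : W ≤ U := by
    by_contra hcon
    have hlt : U < U ⊔ W := lt_of_le_of_ne le_sup_left fun h => hcon (le_sup_right.trans h.ge)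
    refine (Alperin.lt_inf_normalizer (S.2.to_le (sup_le hUS (hWS.trans inf_le_left))) hlt).not_ge ?_
    rintro x ⟨hx, hxN⟩
    have hx' : x ∈ ((U ⊔ W : Subgroup G) : Set G) := hx
    rw [Subgroup.coe_mul_of_left_le_normalizer_right U W (hUS.trans hWn)] at hx'
    obtain ⟨u, hu, v, hv, rfl⟩ := Set.mem_mul.mp hx'
    refine U.mul_mem hu (hWU ⟨hv, ?_⟩)
    have := NU.mul_mem (NU.inv_mem (Subgroup.le_normalizer hu)) hxN
    simpa using this
  refine ⟨n, ?_, 1, Subgroup.one_mem _, (mul_one n).symm⟩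
  obtain ⟨h, hh, c, hc, rfl⟩ := hctrl W hWS n (le_inf
    ((conjOf_mono hWle).trans ((mem_normalizer_iff_conjOf.mp hn).le.trans hUS))
    (conjOf_le_iff.mpr fun x hx => ‹N.Normal›.conj_mem x (hWS hx).2 n))
  exact Subgroup.mul_mem _ hh (Subgroup.centralizer_le_normalizer _ hc.1)

/-- A conjugation inside a normal subgroup combined with the normalizer of its Sylow subgroup. -/
theorem splitsIn_of_normal_sylow {S : Sylow p G} {N W : Subgroup G} [N.Normal]
    (hD : Subgroup.normalizer (((S : Subgroup G) ⊓ N : Subgroup G) : Set G) ≤ Subgroup.normalizer (W : Set G))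
    (hN : ∀ B : Subgroup G, B ≤ (S : Subgroup G) ⊓ N → ∀ n ∈ N, conjOf n B ≤ (S : Subgroup G) ⊓ N →
      ∃ h ∈ Subgroup.normalizer (W : Set G), ∃ c ∈ Subgroup.centralizer (B : Set G) ⊓ N, n = h * c)
    {B : Subgroup G} (hB : B ≤ (S : Subgroup G) ⊓ N) {g : G} (hg : conjOf g B ≤ (S : Subgroup G) ⊓ N) :
    ∃ h ∈ Subgroup.normalizer (W : Set G), ∃ c ∈ Subgroup.centralizer (B : Set G) ⊓ N, g = h * c := by
  set D := (S : Subgroup G) ⊓ N with hDdef
  have hsyl : SylowIn p D N := ⟨inf_le_right, S.2.to_le inf_le_left,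
    Alperin.not_dvd_relIndex_inf S (N := ⊤) (by rw [inf_top_eq, Subgroup.relIndex_top_right]; exact S.not_dvd_index)
      le_top (by rw [Subgroup.normalizer_eq_top])⟩
  have hle : conjOf g⁻¹ D ≤ N := conjOf_le_iff.mpr fun x hx => ‹N.Normal›.conj_mem x hx.2 g⁻¹
  obtain ⟨a, ha, haD⟩ := exists_conj_le_of_sylowIn hsyl hle (((S.2.to_le inf_le_left)).map _)
  rw [conjOf_conjOf] at haD
  have hm0 : a * g⁻¹ ∈ Subgroup.normalizer (D : Set G) :=
    mem_normalizer_iff_conjOf.mpr (Subgroup.eq_of_le_of_card_ge haD (card_conjOf _ _).ge)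
  have ham : conjOf a B ≤ D := by
    have h1 : conjOf (a * g⁻¹) (conjOf g B) ≤ D := (conjOf_mono hg).trans (mem_normalizer_iff_conjOf.mp hm0).le
    rwa [conjOf_conjOf, inv_mul_cancel_right] at h1
  obtain ⟨h, hh, c, hc, e⟩ := hN B hB a ha ham
  refine ⟨(a * g⁻¹)⁻¹ * h, Subgroup.mul_mem _ (Subgroup.inv_mem _ (hD hm0)) hh, c, hc, ?_⟩
  rw [mul_assoc, ← e]
  group

end CfsgLib.ConjFunctor
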