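import Cfsg.Agent.S0599
import Cfsg.Agent.ConjFunctor.Basic
import Cfsg.Agent.ConjFunctor.LimitOffender
import Mathlib.Algebra.GroupWithZero.Submonoid.Instances
import Mathlib.Data.ZMod.Basic

/-!
A quadratic offender in a `p`-group that is normal in its normal closure.
-/

set_option autoImplicit false

open scoped commutatorElement

namespace CfsgLib.ConjFunctor

section RingFacts

variable {A : Type*} [Ring A]

lemma one_add_mul_one_sub {ξ : A} (h : ξ * ξ = 0) : (1 + ξ) * (1 - ξ) = 1 := by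
  rw [show (1 + ξ) * (1 - ξ) = 1 - ξ * ξ by noncomm_ring, h, sub_zero]

lemma neg_sq_eq_zero {ξ : A} (h : ξ * ξ = 0) : -ξ * -ξ = 0 := by rw [neg_mul_neg, h]

lemma neg_add_neg_sq_eq_zero {ξ : A} (h : ξ * ξ = 0) : (-ξ + -ξ) * (-ξ + -ξ) = 0 := by
  simp [add_mul, mul_add, h]

lemma conj_sub_conj (ξ η : A) : ((1 + ξ) * η * (1 - ξ)) - ((1 - ξ) * η * (1 + ξ)) =
    (ξ * η - η * ξ) + (ξ * η - η * ξ) := by noncomm_ring

lemma deriv_twice {β : A} (h : β * β = 0) (α : A) :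
    β * (β * α - α * β) - (β * α - α * β) * β = -(β * α * β) + -(β * α * β) := by
  calc β * (β * α - α * β) - (β * α - α * β) * β
      = (β * β) * α + α * (β * β) + (-(β * α * β) + -(β * α * β)) := by noncomm_ring
    _ = _ := by rw [h, zero_mul, mul_zero, zero_add, zero_add]

lemma conj_expand (β α : A) : (1 + β) * α * (1 - β) = α + (β * α - α * β) + -(β * α * β) := by noncomm_ring

end RingFacts

section Conjugates

variable {Ω : Type*} [Group Ω] [Finite Ω] {p : ℕ} [Fact p.Prime]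

/-- If some conjugate under `G` fails to normalize `A`, some conjugate contains an element `b` outside `N(A)`
all whose powers give mutually normalizing conjugates. -/
theorem exists_conj_element {G A : Subgroup Ω} (hG : IsPGroup p G) (hAG : A ≤ G)
    (h : ∃ g ∈ G, ∃ a ∈ A, g * a * g⁻¹ ∉ Subgroup.normalizer (A : Set Ω)) :
    ∃ g ∈ G, ∃ a ∈ A, g * a * g⁻¹ ∉ Subgroup.normalizer (A : Set Ω) ∧
      ∀ m : ℤ, conjOf ((g * a * g⁻¹) ^ m) A ≤ Subgroup.normalizer (A : Set Ω) := by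
  set N := Subgroup.normalizer (A : Set Ω) with hN
  set 𝒮 : Set (Subgroup Ω) := {B | ∃ g ∈ G, B = conjOf g A ∧ conjOf g A ≤ N} with h𝒮
  set M := sSup 𝒮 with hM
  have hMN : M ≤ N := sSup_le fun B ⟨g, _, hB, hgN⟩ => hB ▸ hgN
  have hAM : A ≤ M := le_sSup ⟨1, G.one_mem, (conjOf_one A).symm, by rw [conjOf_one]; exact Subgroup.le_normalizer⟩
  have hMG : M ≤ G := sSup_le fun B ⟨g, hg, hB, _⟩ => hB ▸ conjOf_le_iff.mpr fun x hx =>
    G.mul_mem (G.mul_mem hg (hAG hx)) (G.inv_mem hg)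
  set R := G ⊓ Subgroup.normalizer (M : Set Ω) with hR
  by_contra hcon
  push_neg at hcon
  -- every conjugate inside `R` already lies in `N`
  have hT : ∀ g ∈ G, conjOf g A ≤ R → conjOf g A ≤ N := by
    intro g hg hgR
    refine conjOf_le_iff.mpr fun a ha => ?_
    by_contra hbad
    obtain ⟨m, hm⟩ := hcon g hg a ha hbad
    refine hm ((conjOf_mono hAM).trans ?_)
    exact (mem_normalizer_iff_conjOf.mp (Subgroup.zpow_mem _ (conjOf_le_iff.mp hgR a ha).2 m)).le.trans hMN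
  have hRM : ∀ x ∈ G, x ∈ Subgroup.normalizer (R : Set Ω) → x ∈ R := by
    intro x hxG hxR
    refine ⟨hxG, mem_normalizer_iff_conjOf.mpr (Subgroup.eq_of_le_of_card_ge ?_ (card_conjOf _ _).ge)⟩
    rw [conjOf, Subgroup.map_le_iff_le_comap]
    refine sSup_le fun B ⟨g, hg, hB, hgN⟩ => ?_
    rw [← Subgroup.map_le_iff_le_comap, hB]
    show conjOf x (conjOf g A) ≤ M
    rw [conjOf_conjOf]
    have hgR : conjOf g A ≤ R := le_inf
      (conjOf_le_iff.mpr fun a ha => G.mul_mem (G.mul_mem hg (hAG ha)) (G.inv_mem hg))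
      ((le_sSup ⟨g, hg, rfl, hgN⟩ : conjOf g A ≤ M).trans Subgroup.le_normalizer)
    have hxg : conjOf (x * g) A ≤ R := by
      rw [← conjOf_conjOf]
      exact (conjOf_mono hgR).trans (mem_normalizer_iff_conjOf.mp hxR).le
    exact le_sSup ⟨x * g, G.mul_mem hxG hg, rfl, hT _ (G.mul_mem hxG hg) hxg⟩
  have hRG : G ≤ R := by
    haveI : Group.IsNilpotent ↥G := hG.isNilpotent
    have htop : R.subgroupOf G = ⊤ := by
      refine normalizerCondition_iff_only_full_group_self_normalizing.mp Group.normalizerCondition_of_isNilpotent _ ?_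
      refine le_antisymm (fun x hx => hRM _ x.2 ?_) Subgroup.le_normalizer
      rw [Subgroup.mem_normalizer_iff]
      intro y
      constructor
      · exact fun hy => (Subgroup.mem_normalizer_iff.mp hx ⟨y, hy.1⟩).mp hy
      · intro hy
        have hyG : y ∈ G := by
          have := G.mul_mem (G.mul_mem (G.inv_mem x.2) hy.1) x.2
          simpa [mul_assoc] using this
        exact (Subgroup.mem_normalizer_iff.mp hx ⟨y, hyG⟩).mpr hy
    exact Subgroup.subgroupOf_eq_top.mp htop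
  obtain ⟨g, hg, a, ha, hbad⟩ := h
  exact hbad (conjOf_le_iff.mp (hT g hg ((conjOf_le_iff.mpr fun x hx =>
    G.mul_mem (G.mul_mem hg (hAG hx)) (G.inv_mem hg)).trans hRG)) a ha)

end Conjugates

section Offender

variable {Ω : Type*} [Group Ω] [Finite Ω] {p : ℕ} [Fact p.Prime]

/-- A finite `p`-group with an offender on `V` has a quadratic one. -/
theorem exists_quadratic_offender {V G : Subgroup Ω} (hV : Cfsg.IsElementaryAbelian p V)
    (hGV : G ≤ Subgroup.normalizer (V : Set Ω)) (hfaith : G ⊓ Subgroup.centralizer (V : Set Ω) = ⊥)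
    {E : Subgroup Ω} (hEG : E ≤ G) (hE1 : E ≠ ⊥) (hEe : Cfsg.IsElementaryAbelian p E)
    (hEo : Nat.card ↥V ≤ Nat.card ↥E * Nat.card ↥(V ⊓ Subgroup.centralizer (E : Set Ω))) :
    ∃ A : Subgroup Ω, A ≤ G ∧ A ≠ ⊥ ∧ Cfsg.IsElementaryAbelian p A ∧
      Nat.card ↥V ≤ Nat.card ↥A * Nat.card ↥(V ⊓ Subgroup.centralizer (A : Set Ω)) ∧ ⁅⁅V, A⁆, A⁆ = ⊥ := by
  classical
  let meas : Subgroup Ω → ℕ := fun B => Nat.card ↥B * Nat.card ↥(V ⊓ Subgroup.centralizer (B : Set Ω))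
  obtain ⟨A, ⟨hAE, hA1⟩, hAmax⟩ := (Set.toFinite {B : Subgroup Ω | B ≤ E ∧ B ≠ ⊥}).exists_maximalFor meas _
    ⟨E, le_rfl, hE1⟩
  have hmeas : meas E ≤ meas A := (le_total (meas E) (meas A)).elim id fun h => hAmax ⟨le_rfl, hE1⟩ h
  have hAe : Cfsg.IsElementaryAbelian p A :=
    ⟨⟨⟨fun x y => Subtype.ext (congrArg (fun z : ↥E => (z : Ω))
      (hEe.1.is_comm.comm ⟨x, hAE x.2⟩ ⟨y, hAE y.2⟩))⟩⟩, fun a ha => hEe.2 a (hAE ha)⟩
  have hcomm : ⁅A, A⁆ ≤ Subgroup.centralizer (V : Set Ω) := by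
    rw [Subgroup.commutator_self_eq_bot_iff.mpr hAe.1]; exact bot_le
  have hbest : Cfsg.IsBestOffenderOn p V A := by
    refine ⟨fun B hB => ?_, hcomm, fun a ha => by rw [hAe.2 a ha]; exact one_mem _⟩
    by_cases hB1 : B = ⊥
    · subst hB1
      rw [Subgroup.card_bot, one_mul]
      exact le_trans (Subgroup.card_le_of_le inf_le_left) (hEo.trans hmeas)
    · exact (le_total (meas B) (meas A)).elim id fun h => hAmax ⟨hB.trans hAE, hB1⟩ h
  have hAV : A ≤ Subgroup.normalizer (V : Set Ω) := (hAE.trans hEG).trans hGV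
  obtain ⟨hA'best, -, hne⟩ := Cfsg.Agent.S0599.result V A hV hAV hbest V le_rfl
  set A' := A ⊓ Subgroup.centralizer ((⁅V, A⁆ : Subgroup Ω) : Set Ω) with hA'
  have hA'G : A' ≤ G := inf_le_left.trans (hAE.trans hEG)
  have hVA : ⁅V, A⁆ ≠ ⊥ := by
    intro h
    refine hA1 (le_bot_iff.mp (hfaith ▸ le_inf (hAE.trans hEG) ?_))
    rw [Subgroup.commutator_comm] at h
    exact Subgroup.commutator_eq_bot_iff_le_centralizer.mp h
  refine ⟨A', hA'G, fun h => ?_, ?_, ?_, ?_⟩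
  · refine hne hVA ?_
    rw [h, Subgroup.commutator_bot_right]
  · exact ⟨⟨⟨fun x y => Subtype.ext (congrArg (fun z : ↥A => (z : Ω))
      (hAe.1.is_comm.comm ⟨x, x.2.1⟩ ⟨y, y.2.1⟩))⟩⟩, fun a ha => hAe.2 a ha.1⟩
  · have h := hA'best.1 ⊥ bot_le
    rw [Subgroup.card_bot, one_mul, Subgroup.coe_bot] at h
    rwa [show Subgroup.centralizer ({1} : Set Ω) = ⊤ by
      rw [eq_top_iff]; intro x _ y hy; rw [Set.mem_singleton_iff.mp hy, one_mul, mul_one], inf_top_eq] at h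
  · rw [Subgroup.commutator_eq_bot_iff_le_centralizer]
    exact (Subgroup.commutator_mono le_rfl inf_le_left).trans (Subgroup.le_centralizer_iff.mp inf_le_right)

set_option maxHeartbeats 1000000 in
/-- **Offenders normal in their normal closure.** For odd `p`, an offender in a `p`-group acting faithfully yields a
quadratic offender normalized by all its conjugates. -/
theorem exists_offender_normal_in_closure (hp : p ≠ 2) {V G : Subgroup Ω} (hV : Cfsg.IsElementaryAbelian p V)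
    (hG : IsPGroup p G) (hGV : G ≤ Subgroup.normalizer (V : Set Ω))
    (hfaith : G ⊓ Subgroup.centralizer (V : Set Ω) = ⊥)
    (hF : ∃ E : Subgroup Ω, E ≤ G ∧ E ≠ ⊥ ∧ Cfsg.IsElementaryAbelian p E ∧
      Nat.card ↥V ≤ Nat.card ↥E * Nat.card ↥(V ⊓ Subgroup.centralizer (E : Set Ω))) :
    ∃ A : Subgroup Ω, A ≤ G ∧ A ≠ ⊥ ∧ Cfsg.IsElementaryAbelian p A ∧
      Nat.card ↥V ≤ Nat.card ↥A * Nat.card ↥(V ⊓ Subgroup.centralizer (A : Set Ω)) ∧ ⁅⁅V, A⁆, A⁆ = ⊥ ∧
      ∀ g ∈ G, ∀ a ∈ A, g * a * g⁻¹ ∈ Subgroup.normalizer (A : Set Ω) := by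
  classical
  letI : CommGroup ↥V := { (inferInstance : Group ↥V) with mul_comm := hV.1.is_comm.comm }
  have hpos : 0 < p := (Fact.out : p.Prime).pos
  haveI : NeZero p := ⟨hpos.ne'⟩
  have hpV : ∀ v : Additive ↥V, p • v = 0 := fun v =>
    Additive.toMul.injective (Subtype.ext (by
      rw [toMul_nsmul, Subgroup.coe_pow, toMul_zero, Subgroup.coe_one]
      exact hV.2 _ (Additive.toMul v).2))
  let W := Additive ↥V
  let mv : ↥V → W := Additive.ofMul
  have hn : ∀ {g : Ω}, g ∈ G → ∀ v : ↥V, g * v * g⁻¹ ∈ V := fun hg v =>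
    (Subgroup.mem_normalizer_iff.mp (hGV hg) _).mp v.2
  let f : ↥G → (W →+ W) := fun g =>
    { toFun := fun w => Additive.ofMul (⟨(g : Ω) * (Additive.toMul w : ↥V) * (g : Ω)⁻¹, hn g.2 _⟩ : ↥V)
      map_zero' := by
        apply Additive.toMul.injective
        apply Subtype.ext
        show (g : Ω) * 1 * (g : Ω)⁻¹ = 1
        group
      map_add' := fun x y => by
        apply Additive.toMul.injective
        apply Subtype.ext
        show (g : Ω) * ((Additive.toMul x : ↥V) * (Additive.toMul y : ↥V) : Ω) * (g : Ω)⁻¹ =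
          (g : Ω) * (Additive.toMul x : ↥V) * (g : Ω)⁻¹ * ((g : Ω) * (Additive.toMul y : ↥V) * (g : Ω)⁻¹)
        group }
  have hfapply : ∀ (g : ↥G) (w : W), ((Additive.toMul (f g w) : ↥V) : Ω) = g * (Additive.toMul w : ↥V) * (g : Ω)⁻¹ :=
    fun _ _ => rfl
  have hfmul : ∀ (g h : ↥G) (w : W), f (g * h) w = f g (f h w) := fun g h w => by
    apply Additive.toMul.injective
    apply Subtype.ext
    rw [hfapply, hfapply, hfapply, Subgroup.coe_mul]
    group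
  have hfone : ∀ w : W, f 1 w = w := fun w => by
    apply Additive.toMul.injective
    apply Subtype.ext
    rw [hfapply, Subgroup.coe_one]
    group
  haveI : Finite (AddMonoid.End (W × ZMod p)) :=
    Finite.of_injective (fun r => (r : W × ZMod p → W × ZMod p)) DFunLike.coe_injective
  let δ : ↥G → (AddMonoid.End (W × ZMod p)) := fun g =>
    (AddMonoidHom.inl W (ZMod p)).comp ((f g - AddMonoidHom.id W).comp (AddMonoidHom.fst W (ZMod p)))
  have hδ : ∀ (g : ↥G) (x : W × ZMod p), δ g x = (f g x.1 - x.1, 0) := fun _ _ => rfl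
  have hδmul : ∀ g h : ↥G, δ (g * h) = δ g + δ h + δ g * δ h := by
    intro g h
    refine AddMonoidHom.ext fun x => ?_
    show δ (g * h) x = δ g x + δ h x + δ g (δ h x)
    simp only [hδ, hfmul, map_sub, Prod.mk_add_mk, add_zero]
    congr 1
    abel
  have hδone : δ 1 = 0 := by
    refine AddMonoidHom.ext fun x => ?_
    show δ 1 x = 0
    rw [hδ, hfone, sub_self]
    rfl
  let ρ : ↥G →* (AddMonoid.End (W × ZMod p)) :=
    { toFun := fun g => 1 + δ g
      map_one' := by rw [hδone, add_zero]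
      map_mul' := fun g h => by rw [hδmul]; noncomm_ring }
  have hρ : ∀ g, ρ g = 1 + δ g := fun _ => rfl
  have hδinj : ∀ g h : ↥G, δ g = δ h → g = h := by
    intro g h e
    have hker : ∀ k : ↥G, δ k = 0 → k = 1 := by
      intro k hk
      have : (k : Ω) ∈ G ⊓ Subgroup.centralizer (V : Set Ω) := by
        refine ⟨k.2, fun v hv => ?_⟩
        have h1 : (δ k (mv ⟨v, hv⟩, 0) : W × ZMod p) = 0 := by rw [hk]; rfl
        rw [hδ] at h1
        have h2 : ((Additive.toMul (f k (mv ⟨v, hv⟩)) : ↥V) : Ω) = v :=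
          congrArg (fun w => ((Additive.toMul w : ↥V) : Ω)) (sub_eq_zero.mp (congrArg Prod.fst h1))
        rw [hfapply] at h2
        exact (mul_inv_eq_iff_eq_mul.mp h2).symm
      rw [hfaith, Subgroup.mem_bot] at this
      exact Subtype.ext this
    have h1 : ρ g = ρ h := by rw [hρ, hρ, e]
    have h2 : ρ (h⁻¹ * g) = 1 := by
      rw [map_mul, h1, ← map_mul, inv_mul_cancel, map_one]
    rw [hρ, add_eq_left] at h2
    exact (inv_mul_eq_one.mp (hker _ h2)).symm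
  -- vectors as endomorphisms
  have hlift : ∀ v : W, (zmultiplesHom W v) (p : ℤ) = 0 := fun v => by
    rw [zmultiplesHom_apply, natCast_zsmul]; exact hpV v
  let ev : W →+ (AddMonoid.End (W × ZMod p)) :=
    { toFun := fun v => (AddMonoidHom.inl W (ZMod p)).comp
        ((ZMod.lift p ⟨zmultiplesHom W v, hlift v⟩).comp (AddMonoidHom.snd W (ZMod p)))
      map_zero' := by
        refine AddMonoidHom.ext fun x => ?_
        obtain ⟨n, hn⟩ := ZMod.intCast_surjective x.2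
        show ((ZMod.lift p ⟨zmultiplesHom W 0, hlift 0⟩ x.2 : W), (0 : ZMod p)) = 0
        rw [← hn, ZMod.lift_coe]
        simp
      map_add' := fun v w => by
        refine AddMonoidHom.ext fun x => ?_
        obtain ⟨n, hn⟩ := ZMod.intCast_surjective x.2
        show ((ZMod.lift p ⟨zmultiplesHom W (v + w), hlift _⟩ x.2 : W), (0 : ZMod p)) =
          ((ZMod.lift p ⟨zmultiplesHom W v, hlift v⟩ x.2 : W), (0 : ZMod p)) +
            ((ZMod.lift p ⟨zmultiplesHom W w, hlift w⟩ x.2 : W), (0 : ZMod p))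
        rw [← hn, ZMod.lift_coe, ZMod.lift_coe, ZMod.lift_coe]
        simp [zsmul_add] }
  have hev : ∀ (v : W) (w : W) (n : ℤ), ev v (w, (n : ZMod p)) = (n • v, 0) := fun v w n => by
    show ((ZMod.lift p ⟨zmultiplesHom W v, hlift v⟩ (n : ZMod p) : W), (0 : ZMod p)) = _
    rw [ZMod.lift_coe]
    rfl
  have hevinj : Function.Injective ev := fun v w e => by
    have h1 : ev v ((0 : W), ((1 : ℤ) : ZMod p)) = ev w ((0 : W), ((1 : ℤ) : ZMod p)) := by rw [e]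
    rw [hev, hev, one_zsmul, one_zsmul] at h1
    exact congrArg Prod.fst h1
  have hδev : ∀ (g : ↥G) (v : W), δ g * ev v = ev (f g v - v) := fun g v => by
    refine AddMonoidHom.ext fun x => ?_
    obtain ⟨w, t⟩ := x
    obtain ⟨n, rfl⟩ := ZMod.intCast_surjective t
    show δ g (ev v (w, (n : ZMod p))) = ev (f g v - v) (w, (n : ZMod p))
    rw [hev, hev, hδ, map_zsmul, zsmul_sub]
  set E : AddSubgroup (AddMonoid.End (W × ZMod p)) := ev.range with hE
  -- the family of a subgroup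
  let fam : Subgroup Ω → AddSubgroup (AddMonoid.End (W × ZMod p)) := fun A => AddSubgroup.closure (δ '' {g | (g : Ω) ∈ A})
  have hfamA : ∀ A : Subgroup Ω, A ≤ G → (∀ a b : ↥G, (a : Ω) ∈ A → (b : Ω) ∈ A → δ a * δ b = 0) →
      ∀ x, x ∈ fam A ↔ ∃ a : ↥G, (a : Ω) ∈ A ∧ δ a = x := by
    intro A _ hA x
    refine ⟨fun hx => ?_, fun ⟨a, ha, e⟩ => AddSubgroup.subset_closure ⟨a, ha, e⟩⟩
    induction hx using AddSubgroup.closure_induction with
    | mem x hx => exact hx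
    | zero => exact ⟨1, A.one_mem, hδone⟩
    | add x y _ _ hx hy =>
      obtain ⟨a, ha, rfl⟩ := hx
      obtain ⟨b, hb, rfl⟩ := hy
      exact ⟨a * b, A.mul_mem ha hb, by rw [hδmul, hA a b ha hb, add_zero]⟩
    | neg x _ hx =>
      obtain ⟨a, ha, rfl⟩ := hx
      refine ⟨a⁻¹, A.inv_mem ha, ?_⟩
      have := hδmul a a⁻¹
      rw [mul_inv_cancel, hδone, hA a a⁻¹ ha (A.inv_mem ha), add_zero] at this
      exact eq_neg_of_add_eq_zero_right this.symm
  have hquadmul : ∀ A : Subgroup Ω, ⁅⁅V, A⁆, A⁆ = ⊥ → ∀ a b : ↥G, (a : Ω) ∈ A → (b : Ω) ∈ A → δ a * δ b = 0 := by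
    intro A hA a b ha hb
    refine AddMonoidHom.ext fun x => ?_
    show δ a (δ b x) = 0
    rw [hδ, hδ]
    refine Prod.ext (sub_eq_zero.mpr (Additive.toMul.injective (Subtype.ext ?_))) rfl
    set v := ((Additive.toMul x.1 : ↥V) : Ω)
    have e : ((Additive.toMul (f b x.1 - x.1) : ↥V) : Ω) = (v * ((b : Ω) * v⁻¹ * (b : Ω)⁻¹))⁻¹ := by
      rw [toMul_sub, Subgroup.coe_div, hfapply, div_eq_mul_inv]
      show (b : Ω) * v * (b : Ω)⁻¹ * v⁻¹ = _
      group
    rw [hfapply]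
    show (a : Ω) * ((Additive.toMul (f b x.1 - x.1) : ↥V) : Ω) * (a : Ω)⁻¹ = _
    rw [e, show v * ((b : Ω) * v⁻¹ * (b : Ω)⁻¹) = ⁅v, (b : Ω)⁆ by rw [commutatorElement_def]; group]
    have h1 : ⁅⁅V, A⁆, A⁆ = ⊥ := hA
    rw [Subgroup.commutator_eq_bot_iff_le_centralizer] at h1
    have h2 := h1 (Subgroup.inv_mem _ (Subgroup.commutator_mem_commutator (Additive.toMul x.1 : ↥V).2 hb)) a ha
    exact mul_inv_eq_iff_eq_mul.mpr h2
  have hcardfam : ∀ A : Subgroup Ω, A ≤ G → ⁅⁅V, A⁆, A⁆ = ⊥ → Nat.card (fam A) = Nat.card A := by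
    intro A hAG hq
    refine (Nat.card_congr (Equiv.ofBijective (fun a : ↥A => (⟨δ ⟨a, hAG a.2⟩,
      AddSubgroup.subset_closure ⟨⟨a, hAG a.2⟩, a.2, rfl⟩⟩ : fam A)) ⟨fun a b e => ?_, ?_⟩)).symm
    · exact Subtype.ext (congrArg (fun z : ↥G => (z : Ω)) (hδinj _ _ (congrArg Subtype.val e)))
    · rintro ⟨x, hx⟩
      obtain ⟨a, ha, rfl⟩ := (hfamA A hAG (hquadmul A hq) x).mp hx
      exact ⟨⟨a, ha⟩, Subtype.ext rfl⟩
  have hcardann : ∀ (A : Subgroup Ω), A ≤ G → ∀ (U : AddSubgroup (AddMonoid.End (W × ZMod p))),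
      (∀ a : ↥G, (a : Ω) ∈ A → δ a ∈ U) → (∀ x ∈ U, ∃ a : ↥G, (a : Ω) ∈ A ∧ δ a = x) →
      Nat.card (annIn E U) = Nat.card ↥(V ⊓ Subgroup.centralizer (A : Set Ω)) := by
    intro A hAG U hU1 hU2
    have hmem : ∀ v : W, ev v ∈ annIn E U ↔ ((Additive.toMul v : ↥V) : Ω) ∈ Subgroup.centralizer (A : Set Ω) := by
      intro v
      constructor
      · intro hv a ha
        have h1 := hv.2 _ (hU1 ⟨a, hAG ha⟩ ha)
        rw [hδev] at h1
        have h2 := congrArg (fun w => ((Additive.toMul w : ↥V) : Ω))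
          (sub_eq_zero.mp (hevinj (h1.trans (map_zero ev).symm)))
        simp only [hfapply] at h2
        exact mul_inv_eq_iff_eq_mul.mp h2
      · intro hv
        refine ⟨⟨v, rfl⟩, fun x hx => ?_⟩
        obtain ⟨a, ha, rfl⟩ := hU2 x hx
        rw [hδev]
        have : f a v = v := Additive.toMul.injective (Subtype.ext (by
          rw [hfapply]; exact mul_inv_eq_iff_eq_mul.mpr (hv a ha)))
        rw [this, sub_self, map_zero]
    symm
    refine Nat.card_congr (Equiv.ofBijective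
      (fun v : ↥(V ⊓ Subgroup.centralizer (A : Set Ω)) =>
        (⟨ev (mv ⟨v, v.2.1⟩), (hmem _).mpr v.2.2⟩ : annIn E U)) ⟨fun v w e => ?_, ?_⟩)
    · exact Subtype.ext (congrArg (fun z => ((Additive.toMul z : ↥V) : Ω)) (hevinj (congrArg Subtype.val e)))
    · rintro ⟨x, hx⟩
      obtain ⟨v, rfl⟩ := hx.1
      exact ⟨⟨(Additive.toMul v : ↥V), (Additive.toMul v : ↥V).2, (hmem v).mp hx⟩, rfl⟩
  -- the filtration
  set P := V ⊔ G with hP
  have hVp : IsPGroup p ↥V := fun v => ⟨1, Subtype.ext (by simpa using hV.2 v v.2)⟩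
  have hPp : IsPGroup p ↥P := IsPGroup.to_sup_of_normal_left' hVp hG hGV
  obtain ⟨n, hn'⟩ := Subgroup.nilpotent_iff_lowerCentralSeries.mp hPp.isNilpotent
  let Lw : ℕ → AddSubgroup W := fun j =>
    Subgroup.toAddSubgroup (((Subgroup.lowerCentralSeries (⊤ : Subgroup ↥P) j).map P.subtype).subgroupOf V)
  let T : ℕ → AddSubgroup (W × ZMod p) := fun j => match j with
    | 0 => ⊤
    | j + 1 => (Lw j).prod ⊥
  have hTanti : ∀ j, T (j + 1) ≤ T j := by
    rintro (_ | j)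
    · exact le_top
    · rintro ⟨w, t⟩ ⟨hw, ht⟩
      exact ⟨Subgroup.map_mono (Subgroup.lowerCentralSeries_antitone (⊤ : Subgroup ↥P) (Nat.le_succ j)) hw, ht⟩
  let F : ℕ → AddSubgroup (AddMonoid.End (W × ZMod p)) := fun i =>
    { carrier := {r | ∀ j, ∀ x ∈ T j, r x ∈ T (j + i)}
      zero_mem' := fun j x _ => (T (j + i)).zero_mem
      add_mem' := fun hr hs j x hx => (T (j + i)).add_mem (hr j x hx) (hs j x hx)
      neg_mem' := fun hr j x hx => (T (j + i)).neg_mem (hr j x hx) }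
  have hFanti : ∀ i, F (i + 1) ≤ F i := fun i r hr j x hx => hTanti _ (hr j x hx)
  have hFmul : ∀ i i' r s, r ∈ F i → s ∈ F i' → r * s ∈ F (i + i') := fun i i' r s hr hs j x hx => by
    have h := hr _ _ (hs j x hx)
    rwa [add_assoc, add_comm i' i] at h
  have hδF : ∀ g, δ g ∈ F 1 := by
    intro g j x hx
    rw [hδ]
    rcases j with _ | j
    · refine ⟨?_, rfl⟩
      show ((Additive.toMul (f g x.1 - x.1) : ↥V) : Ω) ∈ (Subgroup.lowerCentralSeries (⊤ : Subgroup ↥P) 0).map P.subtype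
      rw [Subgroup.lowerCentralSeries_zero]
      exact ⟨⟨_, Subgroup.mem_sup_left (Additive.toMul (f g x.1 - x.1) : ↥V).2⟩, Subgroup.mem_top _, rfl⟩
    · refine ⟨?_, rfl⟩
      obtain ⟨⟨z, hz, hzv⟩, -⟩ := hx
      show ((Additive.toMul (f g x.1 - x.1) : ↥V) : Ω) ∈
        (Subgroup.lowerCentralSeries (⊤ : Subgroup ↥P) (j + 1)).map P.subtype
      refine ⟨⁅(⟨g, Subgroup.mem_sup_right g.2⟩ : ↥P), z⁆, ?_, ?_⟩
      · rw [Subgroup.lowerCentralSeries_succ, Subgroup.commutator_comm]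
        exact Subgroup.commutator_mem_commutator (Subgroup.mem_top _) hz
      · rw [toMul_sub, Subgroup.coe_div, hfapply, div_eq_mul_inv, map_commutatorElement, commutatorElement_def]
        simp only [Subgroup.subtype_apply] at hzv ⊢
        rw [hzv]
  have hFN : F (n + 1) = ⊥ := by
    rw [eq_bot_iff]
    intro r hr
    refine AddMonoidHom.ext fun x => ?_
    have hx := hr 0 x (AddSubgroup.mem_top x)
    rw [zero_add] at hx
    obtain ⟨h1, h2⟩ := hx
    refine Prod.ext (Additive.toMul.injective (Subtype.ext ?_)) h2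
    have h3 : ((Additive.toMul (r x).1 : ↥V) : Ω) ∈ (Subgroup.lowerCentralSeries (⊤ : Subgroup ↥P) n).map P.subtype :=
      h1
    rw [hn', Subgroup.map_bot, Subgroup.mem_bot] at h3
    exact h3
  -- choose the deepest quadratic offender
  let Φ : Subgroup Ω → ℕ := fun A => ∑ i ∈ Finset.range (n + 1), Nat.card ↥(fam A ⊓ F i)
  obtain ⟨E₀, hE₀G, hE₀1, hE₀e, hE₀o⟩ := hF
  obtain ⟨A, ⟨hAG, hA1, hAe, hAo, hAq⟩, hAmax⟩ := (Set.toFinite {A : Subgroup Ω | A ≤ G ∧ A ≠ ⊥ ∧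
    Cfsg.IsElementaryAbelian p A ∧ Nat.card ↥V ≤ Nat.card ↥A * Nat.card ↥(V ⊓ Subgroup.centralizer (A : Set Ω)) ∧
    ⁅⁅V, A⁆, A⁆ = ⊥}).exists_maximalFor Φ _ (exists_quadratic_offender hV hGV hfaith hE₀G hE₀1 hE₀e hE₀o)
  refine ⟨A, hAG, hA1, hAe, hAo, hAq, ?_⟩
  by_contra hcon
  push_neg at hcon
  obtain ⟨g, hg, a, ha, hbN, hbA⟩ := exists_conj_element hG hAG hcon
  set U := fam A with hU
  have hsq : ∀ x ∈ U, ∀ y ∈ U, x * y = 0 := by
    intro x hx y hy
    obtain ⟨u, hu, rfl⟩ := (hfamA A hAG (hquadmul A hAq) x).mp hx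
    obtain ⟨w, hw, rfl⟩ := (hfamA A hAG (hquadmul A hAq) y).mp hy
    exact hquadmul A hAq u w hu hw
  set b : ↥G := ⟨g, hg⟩ * ⟨a, hAG ha⟩ * ⟨g, hg⟩⁻¹ with hb
  set β := δ b with hβdef
  have hconjδ : ∀ x y : ↥G, δ (x * y * x⁻¹) = ρ x * δ y * ρ x⁻¹ := by
    intro x y
    have h1 : ρ (x * y * x⁻¹) = ρ x * ρ y * ρ x⁻¹ := by rw [map_mul, map_mul]
    rw [hρ (x * y * x⁻¹), hρ y, mul_add, mul_one, add_mul, ← map_mul, mul_inv_cancel, map_one] at h1
    exact add_left_cancel h1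
  have hρinv : ∀ x : ↥G, ρ x⁻¹ * ρ x = 1 := fun x => by rw [← map_mul, inv_mul_cancel, map_one]
  have hβ : β * β = 0 := by
    rw [hβdef, hb, hconjδ]
    calc ρ ⟨g, hg⟩ * δ ⟨a, hAG ha⟩ * ρ ⟨g, hg⟩⁻¹ * (ρ ⟨g, hg⟩ * δ ⟨a, hAG ha⟩ * ρ ⟨g, hg⟩⁻¹)
        = ρ ⟨g, hg⟩ * δ ⟨a, hAG ha⟩ * (ρ ⟨g, hg⟩⁻¹ * ρ ⟨g, hg⟩) * δ ⟨a, hAG ha⟩ * ρ ⟨g, hg⟩⁻¹ := by noncomm_ring
      _ = ρ ⟨g, hg⟩ * (δ ⟨a, hAG ha⟩ * δ ⟨a, hAG ha⟩) * ρ ⟨g, hg⟩⁻¹ := by rw [hρinv]; noncomm_ring
      _ = 0 := by rw [hquadmul A hAq _ _ ha ha, mul_zero, zero_mul]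
  have hβinv : δ b⁻¹ = -β := by
    have h1 : ρ b⁻¹ = 1 - β := by
      calc ρ b⁻¹ = ρ b⁻¹ * ((1 + β) * (1 - β)) := by
            rw [one_add_mul_one_sub (hβ), mul_one]
        _ = ρ b⁻¹ * ρ b * (1 - β) := by rw [hρ b, mul_assoc]
        _ = 1 - β := by rw [hρinv, one_mul]
    rw [hρ, sub_eq_add_neg] at h1
    exact add_left_cancel h1
  set k := (p + 1) / 2 with hkdef
  have hk : ((2 * k : ℕ) : (AddMonoid.End (W × ZMod p))) = 1 := by
    obtain ⟨j, hj⟩ := (Fact.out : p.Prime).odd_of_ne_two hp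
    have h2k : 2 * k = p + 1 := by omega
    have hp0 : ((p : ℕ) : (AddMonoid.End (W × ZMod p))) = 0 := by
      refine AddMonoidHom.ext fun x => ?_
      show ((p : ℕ) : (AddMonoid.End (W × ZMod p))) x = 0
      rw [AddMonoid.End.natCast_apply]
      exact Prod.ext (hpV x.1) (by simp)
    rw [h2k, Nat.cast_add, hp0, Nat.cast_one, zero_add]
  have hnorm : ∀ γ ∈ ({β, -β, -β + -β} : Set (AddMonoid.End (W × ZMod p))), ∀ α ∈ U, ∀ α' ∈ U,
      α * unipConj γ α' - unipConj γ α' * α ∈ U ∧ α * unipConj γ α' - unipConj γ α' * α ∈ U.map (unipConj γ) := by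
    intro γ hγ
    -- `γ` belongs to a power of `b`
    obtain ⟨c, m, hcm, hcδ, hγ2⟩ : ∃ (c : ↥G) (m : ℤ), c = b ^ m ∧ δ c = γ ∧ γ * γ = 0 := by
      rcases hγ with rfl | rfl | rfl
      · exact ⟨b, 1, (zpow_one b).symm, rfl, hβ⟩
      · exact ⟨b⁻¹, -1, (zpow_neg_one b).symm, hβinv, neg_sq_eq_zero hβ⟩
      · refine ⟨b⁻¹ * b⁻¹, -2, ?_, ?_, neg_add_neg_sq_eq_zero hβ⟩
        · rw [show (-2 : ℤ) = -1 + -1 by norm_num, zpow_add, zpow_neg_one]
        · rw [hδmul, hβinv, neg_sq_eq_zero hβ, add_zero]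
    have hρc : ρ c = 1 + γ := by rw [hρ, hcδ]
    have hρc' : ρ c⁻¹ = 1 - γ := by
      calc ρ c⁻¹ = ρ c⁻¹ * ((1 + γ) * (1 - γ)) := by
            rw [one_add_mul_one_sub (hγ2), mul_one]
        _ = ρ c⁻¹ * ρ c * (1 - γ) := by rw [hρc, mul_assoc]
        _ = 1 - γ := by rw [hρinv, one_mul]
    have hconj : ∀ x : ↥G, δ (c * x * c⁻¹) = unipConj γ (δ x) := fun x => by
      rw [hconjδ, hρc, hρc', unipConj_apply]
    have hcb : (c : Ω) = (g * a * g⁻¹) ^ m := by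
      rw [hcm, SubgroupClass.coe_zpow, hb]
      simp
    have hN1 : ∀ x : ↥G, (x : Ω) ∈ A → ((c * x * c⁻¹ : ↥G) : Ω) ∈ Subgroup.normalizer (A : Set Ω) := by
      intro x hx
      have h := conjOf_le_iff.mp (hbA m) _ hx
      rwa [← hcb] at h
    have hN2 : ∀ x : ↥G, (x : Ω) ∈ A → ((c⁻¹ * x * c : ↥G) : Ω) ∈ Subgroup.normalizer (A : Set Ω) := by
      intro x hx
      have h := conjOf_le_iff.mp (hbA (-m)) _ hx
      rw [zpow_neg, ← hcb, inv_inv] at h
      exact h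
    intro α hα α' hα'
    obtain ⟨u, hu, rfl⟩ := (hfamA A hAG (hquadmul A hAq) α).mp hα
    obtain ⟨w, hw, rfl⟩ := (hfamA A hAG (hquadmul A hAq) α').mp hα'
    set α'' := unipConj γ (δ w) with hα''
    have hmemU : ∀ x : ↥G, (x : Ω) ∈ A → δ x ∈ U := fun x hx => AddSubgroup.subset_closure ⟨x, hx, rfl⟩
    have hsqw : α'' * α'' = 0 := by
      rw [hα'', ← unipConj_mul hγ2, hquadmul A hAq w w hw hw, map_zero]
    have hρs : ∀ (x : ↥G) (ξ : (AddMonoid.End (W × ZMod p))), δ x = ξ → ξ * ξ = 0 → ρ x = 1 + ξ ∧ ρ x⁻¹ = 1 - ξ := by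
      intro x ξ hx hξ
      refine ⟨by rw [hρ, hx], ?_⟩
      calc ρ x⁻¹ = ρ x⁻¹ * ((1 + ξ) * (1 - ξ)) := by
            rw [one_add_mul_one_sub (hξ), mul_one]
        _ = ρ x⁻¹ * ρ x * (1 - ξ) := by rw [hρ x, hx, mul_assoc]
        _ = 1 - ξ := by rw [hρinv, one_mul]
    obtain ⟨hw1, hw2⟩ := hρs (c * w * c⁻¹) α'' (hconj w) hsqw
    obtain ⟨hu1, hu2⟩ := hρs u (δ u) rfl (hquadmul A hAq u u hu hu)
    have key : ∀ ξ η : (AddMonoid.End (W × ZMod p)), ((1 + ξ) * η * (1 - ξ)) - ((1 - ξ) * η * (1 + ξ)) =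
        (ξ * η - η * ξ) + (ξ * η - η * ξ) := fun ξ η => conj_sub_conj ξ η
    constructor
    · -- conjugating `u` by the conjugate of `w`
      have h1 : δ ((c * w * c⁻¹) * u * (c * w * c⁻¹)⁻¹) ∈ U :=
        hmemU _ ((Subgroup.mem_normalizer_iff.mp (hN1 w hw) _).mp hu)
      have h2 : δ ((c * w * c⁻¹)⁻¹ * u * ((c * w * c⁻¹)⁻¹)⁻¹) ∈ U :=
        hmemU _ ((Subgroup.mem_normalizer_iff.mp (Subgroup.inv_mem _ (hN1 w hw)) _).mp hu)
      rw [hconjδ, hw1, hw2] at h1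
      rw [hconjδ, inv_inv, hw1, hw2] at h2
      have h3 := nsmul_mem (sub_mem h1 h2) k
      rw [key, nsmul_add, half_add hk] at h3
      have h4 := neg_mem h3
      rwa [neg_sub] at h4
    · have h0 : ∀ x : ↥G, (x : Ω) ∈ A → δ (x * (c * w * c⁻¹) * x⁻¹) ∈ U.map (unipConj γ) := by
        intro x hx
        refine ⟨δ ((c⁻¹ * x * c) * w * (c⁻¹ * x * c)⁻¹), hmemU _ ((Subgroup.mem_normalizer_iff.mp (hN2 x hx) _).mp hw), ?_⟩
        rw [← hconj]
        congr 1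
        group
      have h1 := h0 u hu
      have h2 := h0 u⁻¹ (A.inv_mem hu)
      rw [hconjδ, hu1, hu2, hconj] at h1
      rw [hconjδ, inv_inv, hu1, hu2, hconj] at h2
      have h3 := nsmul_mem (sub_mem h1 h2) k
      rwa [key, nsmul_add, half_add hk] at h3
  set L := limitOf β U with hL
  have hLsq : ∀ x ∈ L, ∀ y ∈ L, x * y = 0 := limitOf_mul hβ hsq
  have hΓ : ∀ x ∈ L, ∃ y : ↥G, δ y = x := by
    intro x hx
    obtain ⟨y, hy⟩ := one_add_limitOf_mem hk (MonoidHom.mrange ρ) hβ ⟨b, rfl⟩ ⟨b⁻¹, by rw [hρ, hβinv]; abel⟩ hsq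
      (fun α hα => by
        obtain ⟨u, -, rfl⟩ := (hfamA A hAG (hquadmul A hAq) α).mp hα
        exact ⟨u, rfl⟩) hnorm x hx
    exact ⟨y, add_left_cancel hy⟩
  -- the new offender
  let A₁' : Subgroup ↥G :=
    { carrier := {y | δ y ∈ L}
      one_mem' := by show δ 1 ∈ L; rw [hδone]; exact L.zero_mem
      mul_mem' := fun {x y} hx hy => by
        show δ (x * y) ∈ L
        rw [hδmul, hLsq _ hx _ hy, add_zero]
        exact L.add_mem hx hy
      inv_mem' := fun {x} (hx : δ x ∈ L) => by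
        show δ x⁻¹ ∈ L
        have h1 : ρ x⁻¹ = 1 - δ x := by
          calc ρ x⁻¹ = ρ x⁻¹ * ((1 + δ x) * (1 - δ x)) := by
                rw [one_add_mul_one_sub (hLsq _ hx _ hx), mul_one]
            _ = ρ x⁻¹ * ρ x * (1 - δ x) := by rw [hρ x, mul_assoc]
            _ = 1 - δ x := by rw [hρinv, one_mul]
        rw [hρ, sub_eq_add_neg] at h1
        rw [add_left_cancel h1]
        exact L.neg_mem hx }
  set A₁ := A₁'.map G.subtype with hA₁
  have hA₁mem : ∀ y : ↥G, (y : Ω) ∈ A₁ ↔ δ y ∈ L := fun y =>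
    ⟨fun ⟨z, hz, e⟩ => by rwa [← show z = y from Subtype.ext e], fun h => ⟨y, h, rfl⟩⟩
  have hA₁G : A₁ ≤ G := Subgroup.map_subtype_le _
  have hA₁q : ⁅⁅V, A₁⁆, A₁⁆ = ⊥ := by
    rw [Subgroup.commutator_eq_bot_iff_le_centralizer, Subgroup.commutator_le]
    intro v hv y hy z hz
    have h1 : (δ ⟨z, hA₁G hz⟩ * δ ⟨y, hA₁G hy⟩) (mv ⟨v, hv⟩, 0) = 0 := by
      rw [hLsq _ ((hA₁mem _).mp hz) _ ((hA₁mem _).mp hy)]; rfl
    have h2 := congrArg (fun w => ((Additive.toMul w : ↥V) : Ω)) (sub_eq_zero.mp (congrArg Prod.fst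
      (show δ ⟨z, hA₁G hz⟩ (δ ⟨y, hA₁G hy⟩ (mv ⟨v, hv⟩, 0)) = 0 from h1)))
    simp only [hδ, hfapply, AddMonoidHom.coe_fst, AddMonoidHom.id_apply] at h2
    have e : ((Additive.toMul (f ⟨y, hA₁G hy⟩ (mv ⟨v, hv⟩) - mv ⟨v, hv⟩) : ↥V) : Ω) = y * v * y⁻¹ * v⁻¹ := by
      rw [toMul_sub, Subgroup.coe_div, hfapply, div_eq_mul_inv]
      rfl
    have h3 : z * (y * v * y⁻¹ * v⁻¹) * z⁻¹ = y * v * y⁻¹ * v⁻¹ := by rw [e] at h2; exact h2
    rw [mul_inv_eq_iff_eq_mul] at h3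
    rw [commutatorElement_def, show v * y * v⁻¹ * y⁻¹ = (y * v * y⁻¹ * v⁻¹)⁻¹ by group]
    exact (Commute.inv_right (show Commute z (y * v * y⁻¹ * v⁻¹) from h3)).eq
  have hA₁card : Nat.card L = Nat.card A₁ := by
    refine (Nat.card_congr (Equiv.ofBijective (fun y : ↥A₁ => (⟨δ ⟨y, hA₁G y.2⟩, (hA₁mem _).mp y.2⟩ : L))
      ⟨fun x y e => ?_, ?_⟩)).symm
    · exact Subtype.ext (congrArg (fun z : ↥G => (z : Ω)) (hδinj _ _ (congrArg Subtype.val e)))
    · rintro ⟨x, hx⟩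
      obtain ⟨y, rfl⟩ := hΓ x hx
      exact ⟨⟨y, (hA₁mem y).mpr hx⟩, Subtype.ext rfl⟩
  have hfamA₁ : fam A₁ = L := by
    refine le_antisymm ((AddSubgroup.closure_le _).mpr ?_) fun x hx => ?_
    · rintro _ ⟨y, hy, rfl⟩
      exact (hA₁mem y).mp hy
    · obtain ⟨y, rfl⟩ := hΓ x hx
      exact AddSubgroup.subset_closure ⟨y, (hA₁mem y).mpr hx, rfl⟩
  have hA₁1 : A₁ ≠ ⊥ := by
    intro h
    have h1 : Nat.card A ≤ Nat.card A₁ := by
      rw [← hA₁card, ← hcardfam A hAG hAq]; exact card_le_limitOf hβ U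
    rw [h, Subgroup.card_bot] at h1
    exact hA1 (Subgroup.eq_bot_of_card_le _ h1)
  have hA₁e : Cfsg.IsElementaryAbelian p A₁ := by
    refine ⟨⟨⟨fun x y => ?_⟩⟩, fun y hy => ?_⟩
    · have e : (⟨x, hA₁G x.2⟩ * ⟨y, hA₁G y.2⟩ : ↥G) = ⟨y, hA₁G y.2⟩ * ⟨x, hA₁G x.2⟩ := hδinj _ _ (by
        rw [hδmul, hδmul, hLsq _ ((hA₁mem _).mp x.2) _ ((hA₁mem _).mp y.2),
          hLsq _ ((hA₁mem _).mp y.2) _ ((hA₁mem _).mp x.2)]
        abel)
      exact Subtype.ext (congrArg (fun z : ↥G => (z : Ω)) e)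
    · set z : ↥G := ⟨y, hA₁G hy⟩ with hz
      have hzL : δ z ∈ L := (hA₁mem z).mp hy
      have hpow : ∀ i : ℕ, δ (z ^ i) = i • δ z := by
        intro i
        induction i with
        | zero => simp [hδone]
        | succ i ih =>
          rw [pow_succ, hδmul, ih, hLsq _ (nsmul_mem hzL i) _ hzL, add_zero, succ_nsmul]
      have e : z ^ p = 1 := hδinj _ _ (by
        rw [hpow, hδone, nsmul_eq_mul]
        have hp0 : ((p : ℕ) : (AddMonoid.End (W × ZMod p))) = 0 := by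
          refine AddMonoidHom.ext fun x => ?_
          show ((p : ℕ) : (AddMonoid.End (W × ZMod p))) x = 0
          rw [AddMonoid.End.natCast_apply]
          exact Prod.ext (hpV x.1) (by simp)
        rw [hp0, zero_mul])
      exact congrArg (fun z : ↥G => (z : Ω)) e
  have hA₁o : Nat.card ↥V ≤ Nat.card ↥A₁ * Nat.card ↥(V ⊓ Subgroup.centralizer (A₁ : Set Ω)) := by
    refine hAo.trans (Nat.mul_le_mul ?_ ?_)
    · rw [← hA₁card, ← hcardfam A hAG hAq]; exact card_le_limitOf hβ U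
    · rw [← hcardann A hAG U (fun x hx => AddSubgroup.subset_closure ⟨x, hx, rfl⟩)
          (fun x hx => (hfamA A hAG (hquadmul A hAq) x).mp hx),
        ← hcardann A₁ hA₁G L (fun x hx => (hA₁mem x).mp hx)
          (fun x hx => (hΓ x hx).imp fun y hy => ⟨(hA₁mem y).mpr (by rw [hy]; exact hx), hy⟩)]
      refine card_annIn_le_limitOf hβ fun x hx => ?_
      obtain ⟨v, rfl⟩ := hx
      exact ⟨_, (hδev b v).symm⟩
  have hgain : Φ A < Φ A₁ := by
    show _ < ∑ i ∈ Finset.range (n + 1), Nat.card ↥(fam A₁ ⊓ F i)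
    rw [hfamA₁]
    refine exists_filtration_gain hk hβ U F (n + 1) (fun x hx => ?_) hFN hFanti (fun i x hx => ?_) ?_
    · obtain ⟨u, -, rfl⟩ := (hfamA A hAG (hquadmul A hAq) x).mp hx
      exact hFanti 0 (hδF u)
    · refine ⟨sub_mem ?_ (hFmul i 1 x _ hx (hδF b)), ?_⟩
      · have := hFmul 1 i _ x (hδF b) hx
        rwa [add_comm] at this
      · refine hFanti (i + 1) ?_
        have := hFmul _ 1 _ _ (hFmul 1 i _ x (hδF b) hx) (hδF b)
        rwa [show 1 + i + 1 = i + 1 + 1 by omega] at this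
    · by_contra hstable
      push_neg at hstable
      refine hbN ?_
      rw [mem_normalizer_iff_conjOf]
      refine Subgroup.eq_of_le_of_card_ge (conjOf_le_iff.mpr fun x hx => ?_) (card_conjOf _ _).ge
      set α := δ (⟨x, hAG hx⟩ : ↥G) with hαdef
      have hα : α ∈ U := AddSubgroup.subset_closure ⟨_, hx, rfl⟩
      have h1 := hstable _ hα
      have h2 := hstable _ h1
      have e := deriv_twice hβ α
      rw [e] at h2
      have h3 := nsmul_mem h2 k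
      rw [nsmul_add, half_add hk] at h3
      have h4 : δ (b * ⟨x, hAG hx⟩ * b⁻¹) ∈ U := by
        have hρb' : ρ b⁻¹ = 1 - β := by rw [hρ, hβinv, sub_eq_add_neg]
        rw [hconjδ, hρb', hρ b, ← hβdef,
          conj_expand β α]
        exact add_mem (add_mem hα h1) h3
      obtain ⟨u, hu, hue⟩ := (hfamA A hAG (hquadmul A hAq) _).mp h4
      have h5 := congrArg (fun z : ↥G => (z : Ω)) (hδinj _ _ hue)
      simp [hb] at h5
      rw [h5] at hu
      simpa [mul_assoc] using hu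
  exact absurd (hAmax ⟨hA₁G, hA₁1, hA₁e, hA₁o, hA₁q⟩ hgain.le) (not_le.mpr hgain)

end Offender

end CfsgLib.ConjFunctor
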